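import Cfsg.Agent.PermB.TwoPSq.Kernel
import Mathlib.RingTheory.IntegralDomain

/-!
The kernel on blocks does not normalise a regular subgroup of order `p`.
-/

set_option autoImplicit false
set_option linter.style.haveILetI false

namespace Cfsg.Agent.PermB.TwoPSq

open MulAction
open scoped Pointwise

variable {H X Y : Type*} [Group H] [MulAction H X] [MulAction H Y]
  {p : ℕ} {b : X} {B O : Set X} {blk : X → Y} {E : ZMod p → H} {P : Subgroup H}
  [Finite H] [Finite X] [Fact p.Prime]

/-- In a cyclic group a subgroup is determined by its order. -/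
theorem eq_of_card_eq_of_cyclic {K : Type*} [Group K] [Finite K] [IsCyclic K] {L L' : Subgroup K}
    (h : Nat.card L' = Nat.card L) : L' = L := by
  classical
  letI : Fintype K := Fintype.ofFinite K
  have hd : 0 < Nat.card L := Nat.card_pos
  have hle := IsCyclic.card_pow_eq_one_le (α := K) hd
  have hmem : ∀ (M : Subgroup K), Nat.card M = Nat.card L →
      (Finset.univ.filter fun a => a ∈ M) = Finset.univ.filter fun a => a ^ Nat.card L = 1 := by
    intro M hM
    refine Finset.eq_of_subset_of_card_le (fun a ha => ?_) ?_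
    · simp only [Finset.mem_filter, Finset.mem_univ, true_and] at ha ⊢
      rw [← hM]
      exact congrArg Subtype.val (pow_card_eq_one' (x := (⟨a, ha⟩ : M)))
    · refine hle.trans (le_of_eq ?_)
      rw [← hM, Nat.card_eq_fintype_card, Fintype.card_subtype]
  have he := (hmem L' h).trans (hmem L rfl).symm
  ext a
  simpa using Finset.ext_iff.1 he a

namespace Frame

theorem false_of_normal (fr : Frame p b B blk E P) (c : Cfg H p b B O)
    (hQ : ∀ n ∈ kerN H Y, n * E 1 * n⁻¹ ∈ Subgroup.zpowers (E 1)) : False := by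
  classical
  have hp : p.Prime := Fact.out
  haveI : Finite Y := Finite.of_surjective blk fr.surj
  letI : Fintype Y := Fintype.ofFinite Y
  letI : Fintype (fr.block (blk b)) := Fintype.ofFinite _
  haveI := fr.block_isPretransitive (blk b)
  haveI := fr.block_faithful c (blk b)
  have hcardB : Fintype.card (fr.block (blk b)) = p := by
    rw [← Nat.card_eq_fintype_card, fr.card_block]
  -- every element of the stabiliser of `b` acts on the subgroup `E`
  have hconj : ∀ k : stabilizer H b, ∃ s : ZMod p, (k : H) * E 1 * (k : H)⁻¹ = E s := by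
    intro k
    have hmem := (MulAction.toPermHom H Y).normal_ker.conj_mem _ (fr.E_mem 1) (k : H)
    have hpow : (⟨_, hmem⟩ : kerN H Y) ^ p = 1 := Subtype.ext (by
      show ((k : H) * E 1 * (k : H)⁻¹) ^ p = 1
      rw [conj_pow, ← fr.E_natCast, ZMod.natCast_self, fr.E_zero, mul_one, mul_inv_cancel])
    have hz := mem_zpowers_of_normalized (G := kerN H Y) hcardB (σ := ⟨E 1, fr.E_mem 1⟩)
      (by rw [← Subgroup.orderOf_coe]; exact fr.orderOf_E)
      (fun g => by
        obtain ⟨z, hz⟩ := Subgroup.mem_zpowers_iff.1 (hQ g g.2)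
        exact Subgroup.mem_zpowers_iff.2 ⟨z, Subtype.ext hz⟩) hpow
    obtain ⟨n, hn⟩ := (isOfFinOrder_of_finite _).mem_powers_iff_mem_zpowers.2 hz
    exact ⟨(n : ZMod p), by rw [fr.E_natCast]; exact (congrArg Subtype.val hn).symm⟩
  choose s hs using hconj
  have hEs : ∀ (k : stabilizer H b) (i : ZMod p), (k : H) * E i * (k : H)⁻¹ = E (s k * i) := by
    intro k i
    obtain ⟨n, rfl⟩ := ZMod.natCast_zmod_surjective i
    induction n with
    | zero => rw [Nat.cast_zero, fr.E_zero, mul_zero, fr.E_zero, mul_one, mul_inv_cancel]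
    | succ n ih =>
      rw [Nat.cast_succ, fr.add, mul_add, mul_one, fr.add, ← ih, ← hs]
      group
  let sU : stabilizer H b →* ZMod p :=
    { toFun := s
      map_one' := by
        refine fr.E_inj (x := b) ?_
        rw [← hs, Subgroup.coe_one, one_mul, inv_one, mul_one]
      map_mul' := fun k k' => by
        refine fr.E_inj (x := b) (congrArg (· • b) ?_)
        rw [← hEs, ← hs, ← hs]
        simp only [Subgroup.coe_mul]
        group }
  have hsne : ∀ k, s k ≠ 0 := fun k h0 => zero_ne_one (α := ZMod p) (by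
    calc (0 : ZMod p) = sU k * sU k⁻¹ := by
          rw [show sU k = 0 from h0, zero_mul]
      _ = 1 := by rw [← map_mul, mul_inv_cancel, map_one])
  have hfix : ∀ (k : stabilizer H b) (z : X), (k : H) • z = z → ∀ i,
      (k : H) • E i • z = E (s k * i) • z := by
    intro k z hz i
    rw [← hEs, mul_smul, mul_smul, inv_smul_eq_iff.2 hz.symm]
  have hfixB : ∀ k : stabilizer H b, s k = 1 ↔ ∀ x ∈ B, (k : H) • x = x := by
    intro k
    refine ⟨fun h x hx => ?_, fun h => ?_⟩
    · obtain ⟨i, rfl⟩ := fr.fibre b x ((fr.memB x).1 hx).symm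
      rw [hfix k b k.2, h, one_mul]
    · have h1 := h (E 1 • b) ((fr.memB _).2 (fr.blk_E 1 b))
      rw [hfix k b k.2, mul_one] at h1
      exact fr.E_inj h1
  -- the stabiliser of `b` in the kernel
  obtain ⟨L, hL⟩ : ∃ L : Subgroup H, L = kerN H Y ⊓ stabilizer H b := ⟨_, rfl⟩
  have memL : ∀ {n : H}, n ∈ L ↔ n ∈ kerN H Y ∧ n • b = b := fun {n} => by
    rw [hL, Subgroup.mem_inf, mem_stabilizer_iff]
  have hLone : ∀ k : stabilizer H b, (k : H) ∈ kerN H Y → s k = 1 → k = 1 := fun k hk h =>
    Subtype.ext (fr.eq_one_of_block c hk (blk b) fun x hx => (hfixB k).1 h x ((fr.memB x).2 hx))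
  have hLcomm : ∀ m ∈ L, ∀ n ∈ L, m * n = n * m := by
    intro m hm n hn
    let m' : stabilizer H b := ⟨m, (memL.1 hm).2⟩
    let n' : stabilizer H b := ⟨n, (memL.1 hn).2⟩
    have h1 : s ((n' * m')⁻¹ * (m' * n')) = 1 := by
      show sU _ = 1
      rw [map_mul, map_mul sU m', mul_comm (sU m'), ← map_mul sU n', ← map_mul,
        inv_mul_cancel, map_one]
    have hk : (((n' * m')⁻¹ * (m' * n') : stabilizer H b) : H) ∈ kerN H Y := by
      simp only [Subgroup.coe_mul, Subgroup.coe_inv]
      exact mul_mem (inv_mem (mul_mem (memL.1 hn).1 (memL.1 hm).1))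
        (mul_mem (memL.1 hm).1 (memL.1 hn).1)
    have h2 := hLone _ hk h1
    rw [inv_mul_eq_one] at h2
    exact (congrArg Subtype.val h2).symm
  obtain ⟨C, hC⟩ : ∃ C : Set X,
      C = {x | stabilizer (kerN H Y) x = stabilizer (kerN H Y) b} := ⟨_, rfl⟩
  have memC : ∀ {x}, x ∈ C ↔ stabilizer (kerN H Y) x = stabilizer (kerN H Y) b := by simp [hC]
  have hbC : b ∈ C := memC.2 rfl
  have hCfix : ∀ x, x ∈ C ↔ ∀ n ∈ L, n • x = x := by
    intro x
    rw [memC]
    refine ⟨fun h n hn => ?_, fun h => fr.stab_eq fun n hn hnb => h n (memL.2 ⟨hn, hnb⟩)⟩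
    have h1 : (⟨n, (memL.1 hn).1⟩ : kerN H Y) ∈ stabilizer (kerN H Y) b := (memL.1 hn).2
    rw [← h] at h1
    exact h1
  -- a non-trivial element of `L` fixes one point of each block
  have hfixed : ∀ n ∈ L, n ≠ 1 → (∀ x, n • x = x ↔ x ∈ C) ∧ C.ncard = p := by
    intro n hn hn1
    set n' : stabilizer H b := ⟨n, (memL.1 hn).2⟩
    have hs1 : s n' ≠ 1 := fun h => hn1 (congrArg Subtype.val (hLone n' (memL.1 hn).1 h))
    have huniq : ∀ x x', n • x = x → n • x' = x' → blk x = blk x' → x = x' := by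
      intro x x' hx hx' e
      obtain ⟨i, rfl⟩ := fr.fibre x x' e
      have h1 : E (s n' * i) • x = E i • x := (hfix n' x hx i).symm.trans hx'
      have h2 : (s n' - 1) * i = 0 := by rw [sub_mul, one_mul, sub_eq_zero]; exact fr.E_inj h1
      rw [(mul_eq_zero.1 h2).resolve_left (sub_ne_zero.2 hs1), fr.E_zero, one_smul]
    have hiff : ∀ x, n • x = x ↔ x ∈ C := by
      intro x
      refine ⟨fun hx => (hCfix x).2 fun m hm => ?_, fun hx => (hCfix x).1 hx n hn⟩
      refine (huniq x (m • x) hx ?_ (fr.blk_smul (memL.1 hm).1 x).symm).symm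
      rw [smul_smul, hLcomm n hn m hm, mul_smul, hx]
    refine ⟨hiff, ?_⟩
    have hinj : Set.InjOn blk C := fun x hx x' hx' e =>
      huniq x x' ((hiff x).2 hx) ((hiff x').2 hx') e
    have himg : blk '' C = Set.univ := by
      refine Set.eq_univ_of_forall fun j => ?_
      obtain ⟨x, rfl⟩ := fr.surj j
      obtain ⟨u, hu⟩ := fr.fibre x (n • x) (fr.blk_smul (memL.1 hn).1 x).symm
      obtain ⟨i, hi⟩ : ∃ i, s n' * i + u = i := by
        refine ⟨u * (1 - s n')⁻¹, ?_⟩
        have : (1 - s n') ≠ 0 := sub_ne_zero.2 (Ne.symm hs1)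
        field_simp
        ring
      refine ⟨E i • x, (hiff _).1 ?_, fr.blk_E i x⟩
      calc n • E i • x = ((n' : H) * E i * (n' : H)⁻¹) • n • x := by
            rw [mul_smul, mul_smul, show (n' : H) = n from rfl, inv_smul_smul]
        _ = E i • x := by rw [hEs, ← hu, ← mul_smul, ← fr.add, hi]
    rw [← hinj.ncard_image, himg, Set.ncard_univ, fr.cardY]
  have hnoC : L ≠ ⊥ → (∀ x ∈ O, x ∈ C) → False := by
    intro hne hall
    obtain ⟨n, hn, hn1⟩ := (Subgroup.ne_bot_iff_exists_ne_one).1 hne |>.elim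
      fun n hn => (⟨(n : H), n.2, fun e => hn (Subtype.ext e)⟩ : ∃ n ∈ L, n ≠ 1)
    have hins : insert b O = C := by
      refine Set.eq_of_subset_of_ncard_le (Set.insert_subset hbC hall) ?_
      rw [Set.ncard_insert_of_notMem c.notMem, c.card_O, (hfixed n hn hn1).2]
    refine c.noEquiv (fun x y => stabilizer (kerN H Y) x = stabilizer (kerN H Y) y)
      ⟨fun _ => rfl, Eq.symm, Eq.trans⟩ (fun h x y e => fr.stab_smul h e) fun x => ?_
    rw [← Set.mem_insert_iff, hins, memC]
    exact eq_comm
  obtain ⟨θ, hθ⟩ := c.twist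
  obtain ⟨o, ho, hoB⟩ := Set.not_subset.1 c.notSubset
  have hob : blk o ≠ blk b := fun e => hoB ((fr.memB o).2 e)
  -- elements fixing a second block lie in the kernel
  have hSR : ∀ k : H, k • b = b → ∀ j, j ≠ blk b → k • j = j → k ∈ kerN H Y := by
    rcases fr.blocks_cases with h2 | h2
    swap
    · exact fun k hk j hj hkj => h2 k j (blk b) hj hkj (by rw [← fr.equiv, hk])
    have himg : blk '' O = {blk b}ᶜ ∧ Set.InjOn blk O := by
      have hsub : ({blk b}ᶜ : Set Y) ⊆ blk '' O := by
        intro j hj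
        obtain ⟨k, hk, hkj⟩ := fr.stab_transitive h2 hob hj
        exact ⟨k • o, c.inv k hk o ho, by rw [fr.equiv, hkj]⟩
      have h1 : ({blk b}ᶜ : Set Y).ncard + 1 = p := by
        rw [Set.ncard_compl, Set.ncard_singleton, fr.cardY]
        have := hp.pos
        omega
      have h2' := Set.ncard_image_le (f := blk) (s := O)
      have h3 := c.card_O
      have heq : ({blk b}ᶜ : Set Y) = blk '' O :=
        Set.eq_of_subset_of_ncard_le hsub (by omega)
      refine ⟨heq.symm, Set.injOn_of_ncard_image_eq ?_⟩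
      rw [← heq]
      omega
    have hOfix : ∀ k : H, k • b = b → (∀ x ∈ O, k • x = x) → k ∈ kerN H Y := by
      intro k hk hkO
      refine mem_kerN.2 fun j => ?_
      by_cases hj : j = blk b
      · rw [hj, ← fr.equiv, hk]
      · obtain ⟨x, hx, rfl⟩ := himg.1.symm.subset hj
        rw [← fr.equiv, hkO x hx]
    by_cases hL1 : L = ⊥
    swap
    · refine (hnoC hL1 fun x hx => (hCfix x).2 fun n hn => ?_).elim
      exact himg.2 (c.inv n (memL.1 hn).2 x hx) hx (fr.blk_smul (memL.1 hn).1 x)
    have habel : ∀ k k' : stabilizer H b, k * k' = k' * k := by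
      intro k k'
      set d := (θ.symm k' * θ.symm k)⁻¹ * (θ.symm k * θ.symm k')
      have hd : s d = 1 := by
        show sU _ = 1
        rw [map_mul, map_mul sU (θ.symm k), mul_comm (sU (θ.symm k)), ← map_mul sU (θ.symm k'),
          ← map_mul, inv_mul_cancel, map_one]
      have hθd : θ d = (k' * k)⁻¹ * (k * k') := by
        simp only [d, map_mul, map_inv, MulEquiv.apply_symm_apply]
      have h1 : (θ d : H) ∈ L :=
        memL.2 ⟨hOfix _ (θ d).2 (hθ d ((hfixB d).1 hd)), (θ d).2⟩
      rw [hL1, Subgroup.mem_bot, OneMemClass.coe_eq_one, hθd, inv_mul_eq_one] at h1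
      exact h1.symm
    intro k hk j hj hkj
    refine mem_kerN.2 fun i => ?_
    by_cases hi : i = blk b
    · rw [hi, ← fr.equiv, hk]
    obtain ⟨g, hg, rfl⟩ := fr.stab_transitive h2 hj hi
    have e : k * g = g * k := congrArg Subtype.val (habel ⟨k, hk⟩ ⟨g, hg⟩)
    rw [smul_smul, e, mul_smul, hkj]
  -- only the identity fixes the first block pointwise
  have hK1 : ∀ k : stabilizer H b, s k = 1 → k = 1 := by
    intro k hk
    by_contra hne
    have hx : θ k ≠ 1 := by simpa using hne
    have hxO := hθ k ((hfixB k).1 hk)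
    have hxN : (θ k : H) ∈ L :=
      memL.2 ⟨hSR _ (θ k).2 _ hob (by rw [← fr.equiv, hxO o ho]), (θ k).2⟩
    have hx1 : (θ k : H) ≠ 1 := fun e => hx (Subtype.ext e)
    refine hnoC (fun e => hx1 (Subgroup.mem_bot.1 (e ▸ hxN))) fun x hx' => ?_
    exact ((hfixed _ hxN hx1).1 x).1 (hxO x hx')
  have hinj : Function.Injective sU := by
    intro k k' e
    refine inv_mul_eq_one.1 (hK1 _ (show sU (k⁻¹ * k') = 1 from ?_))
    rw [map_mul, ← e, ← map_mul, inv_mul_cancel, map_one]
  haveI : IsCyclic (stabilizer H b) := isCyclic_of_subgroup_isDomain sU hinj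
  by_cases hL1 : L = ⊥
  · refine c.noSharp (fun k hk hk1 x hxb hkx => hk1 ?_) ?_
    · by_cases hxB : x ∈ B
      · obtain ⟨i, rfl⟩ := fr.fibre b x ((fr.memB x).1 hxB).symm
        have h1 : E (s ⟨k, hk⟩ * i) • b = E i • b := (hfix ⟨k, hk⟩ b hk i).symm.trans hkx
        have hi : i ≠ 0 := fun e => hxb (by rw [e, fr.E_zero, one_smul])
        have h2 : s ⟨k, hk⟩ = 1 := by
          have h3 : (s ⟨k, hk⟩ - 1) * i = 0 := by
            rw [sub_mul, one_mul, sub_eq_zero]; exact fr.E_inj h1
          exact sub_eq_zero.1 ((mul_eq_zero.1 h3).resolve_right hi)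
        exact congrArg Subtype.val (hK1 _ h2)
      · have hmem : k ∈ L := memL.2
          ⟨hSR k hk (blk x) (fun e => hxB ((fr.memB x).2 e)) (by rw [← fr.equiv, hkx]), hk⟩
        rwa [hL1, Subgroup.mem_bot] at hmem
    · let φ : stabilizer H b →* (ZMod p)ˣ := sU.toHomUnits
      have hφ : Function.Injective φ := fun k k' e => hinj (congrArg Units.val e)
      have := Subgroup.card_dvd_of_injective φ hφ
      rwa [Nat.card_eq_fintype_card (α := (ZMod p)ˣ), ZMod.card_units] at this
  · have hLK : L ≤ stabilizer H b := hL ▸ inf_le_right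
    refine c.noWitt L hLK (fun L' hL' hcard => ?_) ?_
    · have e := eq_of_card_eq_of_cyclic (K := stabilizer H b)
        (L := L.subgroupOf (stabilizer H b)) (L' := L'.subgroupOf (stabilizer H b))
        (by rw [Nat.card_congr (Subgroup.subgroupOfEquivOfLe hL').toEquiv,
          Nat.card_congr (Subgroup.subgroupOfEquivOfLe hLK).toEquiv, hcard])
      rw [Subgroup.subgroupOf_inj, inf_eq_left.2 hL', inf_eq_left.2 hLK] at e
      exact e
    · obtain ⟨n, hn1⟩ := Subgroup.ne_bot_iff_exists_ne_one.1 hL1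
      rw [show {x : X | ∀ l ∈ L, l • x = x} = C from (Set.ext hCfix).symm]
      exact (hfixed n n.2 fun e => hn1 (Subtype.ext e)).2

end Frame

end Cfsg.Agent.PermB.TwoPSq
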