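import Cfsg.Agent.PermB.TwoPrime.Alg
import Mathlib.Algebra.MonoidAlgebra.Basic
import Mathlib.Algebra.CharP.Lemmas
import Mathlib.NumberTheory.LegendreSymbol.AddCharacter

/-!
An incidence structure between blocks of prime size which is invariant under a doubly transitive
group and is carried around a cycle of `p` blocks is a point or the complement of a point.
-/

set_option autoImplicit false
set_option linter.style.haveILetI false

namespace Cfsg.Agent.PermB.TwoPSq

variable {p : ℕ} {M R : Type*}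

section General

variable [CommRing R] (π : ℕ → M → Equiv.Perm (ZMod p))

/-- The coefficient function of `x` is an invariant matrix between blocks `k` and `l`. -/
def CircInv (k l : ℕ) (x : AddMonoidAlgebra R (ZMod p)) : Prop :=
  ∀ m i j, x.coeff (π l m j - π k m i) = x.coeff (j - i)

theorem coeff_mul_zmod [NeZero p] (x y : AddMonoidAlgebra R (ZMod p)) (d : ZMod p) :
    (x * y).coeff d = ∑ e, x.coeff e * y.coeff (d - e) := by
  classical
  rw [AddMonoidAlgebra.coeff_mul]
  simp only [Finsupp.sum_fintype, zero_mul, mul_zero, ite_self, Finset.sum_const_zero,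
    implies_true]
  refine Finset.sum_congr rfl fun e _ => ?_
  rw [Finset.sum_eq_single (d - e)]
  · rw [if_pos (by abel)]
  · intro b _ hb
    rw [if_neg fun h => hb (by rw [← h]; abel)]
  · exact fun h => absurd (Finset.mem_univ _) h

theorem CircInv.mul [NeZero p] {k l r : ℕ} {x y : AddMonoidAlgebra R (ZMod p)}
    (hx : CircInv π k l x) (hy : CircInv π l r y) : CircInv π k r (x * y) := by
  intro m i j
  rw [coeff_mul_zmod, coeff_mul_zmod]
  refine ((Fintype.sum_equiv ((Equiv.addRight i).trans ((π l m).trans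
    (Equiv.subRight (π k m i)))) (fun e => x.coeff e * y.coeff (j - i - e)) _ ?_)).symm
  intro e
  simp only [Equiv.trans_apply, Equiv.coe_addRight, Equiv.subRight_apply]
  rw [hx, show π r m j - π k m i - (π l m (e + i) - π k m i) = π r m j - π l m (e + i) by abel,
    hy, add_sub_cancel_right, show j - i - e = j - (e + i) by abel]

theorem CircInv.one : CircInv π 0 0 (1 : AddMonoidAlgebra R (ZMod p)) := by
  classical
  intro m i j
  simp only [AddMonoidAlgebra.one_def, AddMonoidAlgebra.coeff_single, Finsupp.single_apply]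
  refine if_congr ⟨fun h => ?_, fun h => ?_⟩ rfl rfl
  · exact (sub_eq_zero.2 ((π 0 m).injective (sub_eq_zero.1 h.symm))).symm
  · rw [sub_eq_zero.1 h.symm, sub_self]

variable {π}

theorem CircInv.succ (σ : M → M) (hσ : ∀ k m, π (k + 1) m = π k (σ m))
    {x : AddMonoidAlgebra R (ZMod p)} (hx : CircInv π 0 1 x) :
    ∀ k, CircInv π k (k + 1) x
  | 0 => hx
  | k + 1 => fun m i j => by
    rw [hσ (k + 1) m, hσ k m]
    exact CircInv.succ σ hσ hx k (σ m) i j

theorem CircInv.pow [NeZero p] (σ : M → M) (hσ : ∀ k m, π (k + 1) m = π k (σ m))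
    {x : AddMonoidAlgebra R (ZMod p)} (hx : CircInv π 0 1 x) :
    ∀ n, CircInv π 0 n (x ^ n)
  | 0 => by rw [pow_zero]; exact CircInv.one π
  | n + 1 => by
    rw [pow_succ]
    exact (CircInv.pow σ hσ hx n).mul π (CircInv.succ σ hσ hx n)

omit [CommRing R] in
/-- An invariant matrix of a block with itself is constant off the diagonal. -/
theorem CircInv.const (h2 : ∀ d d' : ZMod p, d ≠ 0 → d' ≠ 0 → ∃ m, π 0 m 0 = 0 ∧ π 0 m d = d')
    {g : ZMod p → R} (hg : ∀ m i j, g (π 0 m j - π 0 m i) = g (j - i)) {d d' : ZMod p}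
    (hd : d ≠ 0) (hd' : d' ≠ 0) : g d = g d' := by
  obtain ⟨m, h0, h1⟩ := h2 d d' hd hd'
  have := hg m 0 d
  rw [h0, h1, sub_zero, sub_zero] at this
  exact this.symm

/-- The indicator of a set. -/
noncomputable def ind (R : Type*) [CommRing R] {p : ℕ} (S : Finset (ZMod p)) :
    AddMonoidAlgebra R (ZMod p) :=
  ∑ x ∈ S, AddMonoidAlgebra.single x 1

theorem coeff_ind (S : Finset (ZMod p)) (d : ZMod p) :
    (ind R S).coeff d = if d ∈ S then 1 else 0 := by
  classical
  simp only [ind, AddMonoidAlgebra.coeff_sum, AddMonoidAlgebra.coeff_single,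
    Finsupp.coe_finsetSum, Finset.sum_apply, Finsupp.single_apply, Finset.sum_ite_eq']

/-- Reflection of the group algebra. -/
noncomputable def rev (R : Type*) [CommRing R] (p : ℕ) :
    AddMonoidAlgebra R (ZMod p) →+* AddMonoidAlgebra R (ZMod p) :=
  AddMonoidAlgebra.mapDomainRingHom R (negAddMonoidHom : ZMod p →+ ZMod p)

theorem coeff_rev (x : AddMonoidAlgebra R (ZMod p)) (d : ZMod p) :
    (rev R p x).coeff d = x.coeff (-d) := by
  have h : (rev R p x).coeff = Finsupp.mapDomain (fun e : ZMod p => -e) x.coeff := rfl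
  rw [h]
  conv_lhs => rw [← neg_neg d]
  exact Finsupp.mapDomain_apply neg_injective _ _

theorem CircInv.rev {k l : ℕ} {x : AddMonoidAlgebra R (ZMod p)} (hx : CircInv π k l x) :
    CircInv π l k (TwoPSq.rev R p x) := by
  intro m i j
  rw [coeff_rev, coeff_rev, neg_sub, neg_sub, hx]

end General

variable [Fact p.Prime] {π : ℕ → M → Equiv.Perm (ZMod p)}

/-- Over the integers modulo `p` the invariant of a cycle shows that the cycle closes up. -/
theorem circ_shift (hp2 : p ≠ 2) (σ : M → M) (hσ : ∀ k m, π (k + 1) m = π k (σ m))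
    (t : ZMod p) (ht : ∀ m j, π p m j + t = π 0 m (j + t))
    (h2 : ∀ d d' : ZMod p, d ≠ 0 → d' ≠ 0 → ∃ m, π 0 m 0 = 0 ∧ π 0 m d = d')
    {S : Finset (ZMod p)} (hne : S.Nonempty) (hlt : S ≠ Finset.univ)
    (hS : ∀ m i j, π 1 m j - π 0 m i ∈ S ↔ j - i ∈ S) : t = 0 := by
  classical
  have hp : p.Prime := Fact.out
  by_contra ht0
  have hinv : CircInv π 0 1 (ind (ZMod p) S) := fun m i j => by
    rw [coeff_ind, coeff_ind]
    exact if_congr (hS m i j) rfl rfl
  haveI : CharP (AddMonoidAlgebra (ZMod p) (ZMod p)) p :=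
    charP_of_injective_algebraMap' (R := ZMod p) p
  have hpow : ind (ZMod p) S ^ p = AddMonoidAlgebra.single 0 (S.card : ZMod p) := by
    refine AddMonoidAlgebra.ext ?_
    rw [ind, sum_pow_char p]
    simp only [AddMonoidAlgebra.single_pow, one_pow, nsmul_eq_mul, ZMod.natCast_self, zero_mul,
      Finset.sum_const, ← AddMonoidAlgebra.one_def, mul_one, AddMonoidAlgebra.natCast_def,
      AddMonoidAlgebra.coeff_single]
  obtain ⟨d, hd0, hdt⟩ : ∃ d : ZMod p, d ≠ 0 ∧ d ≠ t := by
    have h3 : ({0, t} : Finset (ZMod p)).card < (Finset.univ : Finset (ZMod p)).card := by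
      rw [Finset.card_univ, ZMod.card]
      have := hp.two_le
      exact lt_of_le_of_lt Finset.card_le_two (by omega)
    obtain ⟨d, -, hd⟩ := Finset.exists_mem_notMem_of_card_lt_card h3
    simp only [Finset.mem_insert, Finset.mem_singleton, not_or] at hd
    exact ⟨d, hd.1, hd.2⟩
  have h := CircInv.const (π := π) h2 (g := fun e => (ind (ZMod p) S ^ p).coeff (e - t))
    (fun m i j => by
      have e := (CircInv.pow σ hσ hinv p) m i (j - t)
      have e' := ht m (j - t)
      rw [sub_add_cancel] at e'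
      rw [show π p m (j - t) - π 0 m i = π 0 m j - π 0 m i - t by rw [← e']; abel,
        show j - t - i = j - i - t by abel] at e
      exact e) hd0 ht0
  simp only [hpow, AddMonoidAlgebra.coeff_single, Finsupp.single_apply] at h
  rw [if_neg (fun e => hdt (sub_eq_zero.1 e.symm)), if_pos (sub_self t).symm,
    eq_comm, ZMod.natCast_eq_zero_iff] at h
  have hcard : S.card < p := by
    have := (Finset.card_lt_iff_ne_univ S).2 hlt
    rwa [ZMod.card] at this
  exact absurd (Nat.le_of_dvd hne.card_pos h) (by omega)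

/-- The invariant of a cycle of blocks is a point or the complement of a point. -/
theorem circ_point (hp2 : p ≠ 2) (σ : M → M) (hσ : ∀ k m, π (k + 1) m = π k (σ m))
    (t : ZMod p) (ht : ∀ m j, π p m j + t = π 0 m (j + t))
    (h2 : ∀ d d' : ZMod p, d ≠ 0 → d' ≠ 0 → ∃ m, π 0 m 0 = 0 ∧ π 0 m d = d')
    {S : Finset (ZMod p)} (hne : S.Nonempty) (hlt : S ≠ Finset.univ)
    (hS : ∀ m i j, π 1 m j - π 0 m i ∈ S ↔ j - i ∈ S) :
    ∃ c, S = {c} ∨ S = Finset.univ.erase c := by
  classical
  have hp : p.Prime := Fact.out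
  obtain rfl : t = 0 := circ_shift hp2 σ hσ t ht h2 hne hlt hS
  have ht' : ∀ m j, π p m j = π 0 m j := fun m j => by simpa using ht m j
  obtain ⟨ζ, hζ⟩ : ∃ ζ : ℂ, IsPrimitiveRoot ζ p :=
    ⟨_, Complex.isPrimitiveRoot_exp p hp.ne_zero⟩
  let ψ : AddChar (ZMod p) ℂ := AddChar.zmodChar p hζ.pow_eq_one
  let χ : AddMonoidAlgebra ℚ (ZMod p) →ₐ[ℚ] ℂ :=
    AddMonoidAlgebra.lift ℚ ℂ (ZMod p) ψ.toMonoidHom
  have hψ : ∀ d, ψ d = ζ ^ d.val := fun d => AddChar.zmodChar_apply _ _
  have hχ : ∀ x : AddMonoidAlgebra ℚ (ZMod p), χ x = ∑ d, (x.coeff d : ℂ) * ζ ^ d.val := by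
    intro x
    have hx : x = ∑ d, AddMonoidAlgebra.single d (x.coeff d) := by
      refine AddMonoidAlgebra.ext (Finsupp.ext fun e => ?_)
      simp [AddMonoidAlgebra.coeff_sum]
    conv_lhs => rw [hx]
    rw [map_sum]
    refine Finset.sum_congr rfl fun d _ => ?_
    simp only [χ, AddMonoidAlgebra.lift_single, AddChar.toMonoidHom_apply, toAdd_ofAdd,
      Rat.smul_def, hψ]
  have hgeom : ∑ d : ZMod p, ψ d = 0 := by
    refine AddChar.sum_eq_zero_of_ne_one fun h => ?_
    have h1 := DFunLike.congr_fun h (1 : ZMod p)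
    rw [hψ, AddChar.one_apply, ZMod.val_one, pow_one] at h1
    exact hζ.ne_one hp.one_lt h1
  -- values of invariant matrices of a block with itself are rational
  have hrat : ∀ x : AddMonoidAlgebra ℚ (ZMod p),
      (∀ d d' : ZMod p, d ≠ 0 → d' ≠ 0 → x.coeff d = x.coeff d') →
        χ x = ((x.coeff 0 - x.coeff 1 : ℚ) : ℂ) := by
    intro x hx
    have e : χ x = ∑ d : ZMod p, ((x.coeff 1 : ℂ) * ψ d +
        if d = 0 then ((x.coeff 0 - x.coeff 1 : ℚ) : ℂ) else 0) := by
      rw [hχ]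
      refine Finset.sum_congr rfl fun d _ => ?_
      by_cases hd : d = 0
      · subst hd
        rw [if_pos rfl, hψ, ZMod.val_zero, pow_zero]
        push_cast
        ring
      · rw [if_neg hd, add_zero, hψ, hx d 1 hd one_ne_zero]
    rw [e, Finset.sum_add_distrib, ← Finset.mul_sum, hgeom, mul_zero, zero_add,
      Finset.sum_ite_eq', if_pos (Finset.mem_univ _)]
  have hF : CircInv π 0 1 (ind ℚ S) := fun m i j => by
    rw [coeff_ind, coeff_ind]
    exact if_congr (hS m i j) rfl rfl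
  set F := ind ℚ S with hFdef
  have hFp : ∀ d d' : ZMod p, d ≠ 0 → d' ≠ 0 → (F ^ p).coeff d = (F ^ p).coeff d' :=
    fun d d' hd hd' => CircInv.const (π := π) h2 (g := fun e => (F ^ p).coeff e)
      (fun m i j => by
        have e := (CircInv.pow σ hσ hF p) m i j
        rwa [ht'] at e) hd hd'
  have hFF : ∀ d d' : ZMod p, d ≠ 0 → d' ≠ 0 →
      (F * rev ℚ p F).coeff d = (F * rev ℚ p F).coeff d' :=
    fun d d' hd hd' => CircInv.const (π := π) h2 (g := fun e => (F * rev ℚ p F).coeff e)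
      (fun m i j => (hF.mul π hF.rev) m i j) hd hd'
  have hrev : rev ℚ p (F ^ p) = F ^ p := by
    refine AddMonoidAlgebra.ext (Finsupp.ext fun d => ?_)
    rw [coeff_rev]
    by_cases hd : d = 0
    · rw [hd, neg_zero]
    · exact hFp _ _ (neg_ne_zero.2 hd) hd
  -- the value of the incidence is a rational multiple of a root of unity
  have hsingle : ∃ (τ : ℚ) (v : ZMod p), χ F = (τ : ℂ) * ψ v := by
    set r : ℚ := (F * rev ℚ p F).coeff 0 - (F * rev ℚ p F).coeff 1
    set r' : ℚ := (F ^ p).coeff 0 - (F ^ p).coeff 1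
    have e1 : χ F * χ (rev ℚ p F) = (r : ℂ) := by rw [← map_mul, hrat _ hFF]
    have e2 : χ F ^ p = (r' : ℂ) := by rw [← map_pow, hrat _ hFp]
    have e3 : χ (rev ℚ p F) ^ p = (r' : ℂ) := by rw [← map_pow, ← map_pow, hrev, hrat _ hFp]
    by_cases h0 : χ F = 0
    · exact ⟨0, 0, by rw [h0, Rat.cast_zero, zero_mul]⟩
    have h0' : (r' : ℂ) ≠ 0 := e2 ▸ pow_ne_zero p h0
    obtain ⟨u, -, hu⟩ := hζ.eq_pow_of_pow_eq_one (ξ := χ (rev ℚ p F) / χ F)
      (by rw [div_pow, e3, e2, div_self h0'])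
    obtain ⟨h, hh⟩ : ∃ h : ZMod p, h + h = (u : ZMod p) := by
      refine ⟨(u : ZMod p) * 2⁻¹, ?_⟩
      have h2' : (2 : ZMod p) ≠ 0 := by
        intro h
        have : ((2 : ℕ) : ZMod p) = 0 := by exact_mod_cast h
        rw [ZMod.natCast_eq_zero_iff] at this
        exact hp2 ((Nat.prime_dvd_prime_iff_eq hp Nat.prime_two).1 this)
      field_simp
      ring
    have eu : ψ (u : ZMod p) = ζ ^ u := AddChar.zmodChar_apply' _ _
    have etau : (χ F * ψ h) ^ 2 = (r : ℂ) := by
      rw [mul_pow, sq (ψ h), ← AddChar.map_add_eq_mul, hh, eu, hu, sq, ← e1]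
      field_simp
    have etaup : (χ F * ψ h) ^ p = (r' : ℂ) := by
      rw [mul_pow, e2, ← AddChar.map_nsmul_eq_pow, nsmul_eq_mul, ZMod.natCast_self, zero_mul,
        AddChar.map_zero_eq_one, mul_one]
    obtain ⟨q, hq⟩ : Odd p := hp.odd_of_ne_two hp2
    have hne0 : χ F * ψ h ≠ 0 := fun h0'' => h0' (by rw [← etaup, h0'', zero_pow hp.ne_zero])
    refine ⟨r' / r ^ q, -h, ?_⟩
    have : (r : ℂ) ^ q * (χ F * ψ h) = (r' : ℂ) := by
      rw [← etau, ← pow_mul, ← pow_succ, ← hq, etaup]
    have hr : (r : ℂ) ^ q ≠ 0 := pow_ne_zero _ (etau ▸ pow_ne_zero 2 hne0)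
    push_cast
    rw [div_mul_eq_mul_div, eq_div_iff hr, ← this, mul_assoc, mul_assoc,
      ← AddChar.map_add_eq_mul, add_neg_cancel, AddChar.map_zero_eq_one, mul_one, mul_comm]
  obtain ⟨τ, v, hτ⟩ := hsingle
  let f : ZMod p → ℚ := fun d => F.coeff d - if d = v then τ else 0
  have hf : ∑ d, (f d : ℂ) * ζ ^ d.val = 0 := by
    simp only [f, Rat.cast_sub, sub_mul, Finset.sum_sub_distrib]
    rw [← hχ, hτ, hψ, sub_eq_zero, Finset.sum_eq_single v]
    · rw [if_pos rfl]
    · intro b _ hb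
      rw [if_neg hb, Rat.cast_zero, zero_mul]
    · exact fun h => absurd (Finset.mem_univ v) h
  have hconst := TwoP.coeff_eq_of_sum_eq_zero hζ f hf
  have hmem : ∀ d d' : ZMod p, d ≠ v → d' ≠ v → (d ∈ S ↔ d' ∈ S) := by
    intro d d' hd hd'
    have e : f d = f d' := (hconst d).trans (hconst d').symm
    simp only [f, if_neg hd, if_neg hd', sub_zero, hFdef, coeff_ind] at e
    by_cases a : d ∈ S <;> by_cases b : d' ∈ S <;> simp_all
  refine ⟨v, ?_⟩
  by_cases h : ∃ d, d ≠ v ∧ d ∈ S
  · obtain ⟨d, hd, hdS⟩ := h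
    refine Or.inr (Finset.ext fun e => ⟨fun he => ?_, fun he => ?_⟩)
    · refine Finset.mem_erase.2 ⟨fun hev => hlt (Finset.eq_univ_of_forall fun x => ?_),
        Finset.mem_univ e⟩
      by_cases hx : x = v
      · rw [hx, ← hev]; exact he
      · exact (hmem x d hx hd).2 hdS
    · exact (hmem e d (Finset.mem_erase.1 he).1 hd).2 hdS
  · push Not at h
    refine Or.inl (Finset.eq_singleton_iff_unique_mem.2 ?_)
    obtain ⟨x, hx⟩ := hne
    have hxv : x = v := by_contra fun e => h x e hx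
    exact ⟨hxv ▸ hx, fun y hy => by_contra fun e => h y e hy⟩

end Cfsg.Agent.PermB.TwoPSq
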