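import Cfsg.Agent.PermB.TwoPSq.Kernel
import Cfsg.Agent.PermB.TwoPSq.Circ

/-!
The kernel on blocks is not doubly transitive on a block.
-/

set_option autoImplicit false
set_option linter.style.haveILetI false

namespace Cfsg.Agent.PermB.TwoPSq

open MulAction
open scoped Pointwise

variable {H X Y : Type*} [Group H] [MulAction H X] [MulAction H Y]
  {p : ℕ} {b : X} {B O : Set X} {blk : X → Y} {E : ZMod p → H} {P : Subgroup H}
  [Finite H] [Finite X] [Fact p.Prime]

theorem exists_ne_two (hp2 : p ≠ 2) (i j : ZMod p) : ∃ l : ZMod p, l ≠ i ∧ l ≠ j := by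
  have hp : p.Prime := Fact.out
  have h3 : ({i, j} : Finset (ZMod p)).card < (Finset.univ : Finset (ZMod p)).card := by
    rw [Finset.card_univ, ZMod.card]
    have := hp.two_le
    exact lt_of_le_of_lt Finset.card_le_two (by omega)
  obtain ⟨d, -, hd⟩ := Finset.exists_mem_notMem_of_card_lt_card h3
  simp only [Finset.mem_insert, Finset.mem_singleton, not_or] at hd
  exact ⟨d, hd.1, hd.2⟩

omit [Fact p.Prime] in
theorem eq_of_subset_of_card_add_one [NeZero p] {S T : Set X} (hST : S ⊆ T)
    (hS : S.ncard + 1 = p) (hT : T.ncard + 1 = p) : S = T :=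
  Set.eq_of_subset_of_ncard_le hST (by omega)

namespace Frame

theorem false_of_two (fr : Frame p b B blk E P) (c : Cfg H p b B O)
    (h2 : ∀ x x' y y' : X, blk x = blk x' → blk x = blk y → blk x = blk y' → x ≠ x' → y ≠ y' →
      ∃ n ∈ kerN H Y, n • x = y ∧ n • x' = y') : False := by
  classical
  have hp : p.Prime := Fact.out
  haveI : Finite Y := Finite.of_surjective blk fr.surj
  obtain ⟨C, hC⟩ : ∃ C : Set X,
      C = {x | stabilizer (kerN H Y) x = stabilizer (kerN H Y) b} := ⟨_, rfl⟩
  have memC : ∀ {x}, x ∈ C ↔ stabilizer (kerN H Y) x = stabilizer (kerN H Y) b := by simp [hC]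
  have hbC : b ∈ C := memC.2 rfl
  have hone : Set.InjOn blk C := by
    intro x hx x' hx' e
    by_contra hne
    obtain ⟨i, hi⟩ := fr.fibre x x' e
    obtain ⟨l, hl0, hli⟩ := exists_ne_two c.two 0 i
    have hxl : x ≠ E l • x := fun e' => hl0 (fr.eq_zero l x e'.symm)
    obtain ⟨n, hn, hn1, hn2⟩ := h2 x x' x (E l • x) e rfl (fr.blk_E l x).symm hne hxl
    have hmem : (⟨n, hn⟩ : kerN H Y) ∈ stabilizer (kerN H Y) x' := by
      rw [memC.1 hx', ← memC.1 hx]
      exact hn1
    rw [mem_stabilizer_iff] at hmem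
    have h3 : x' = E l • x := Eq.trans hmem.symm hn2
    rw [← hi] at h3
    exact hli (fr.E_inj h3).symm
  have hCle : C.ncard ≤ p := by
    rw [← hone.ncard_image, ← fr.cardY, ← Set.ncard_univ]
    exact Set.ncard_le_ncard (Set.subset_univ _)
  have hOB : ∀ x ∈ O, blk x ≠ blk b := by
    intro x hx hxb
    have hxne : x ≠ b := fun e => c.notMem (e ▸ hx)
    have hsub : B \ {b} ⊆ O := by
      rintro y ⟨hy, hyb⟩
      obtain ⟨n, -, hn, hn'⟩ :=
        h2 b x b y hxb.symm rfl ((fr.memB y).1 hy).symm hxne.symm (fun e => hyb e.symm)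
      exact hn' ▸ c.inv n hn x hx
    have h1 : (B \ {b}).ncard + 1 = p := by
      rw [Set.ncard_sdiff_singleton_of_mem c.mem, c.card_B]
      have := hp.pos
      omega
    exact c.notSubset (eq_of_subset_of_card_add_one hsub h1 c.card_O ▸ Set.sdiff_subset)
  -- a point of `O` is fixed, or `O` is a punctured block
  have hdich : ∀ x ∈ O, x ∈ C ∨
      ∃ z ∈ C, blk z = blk x ∧ O = {w | blk w = blk x} \ {z} := by
    intro x hx
    obtain ⟨u, hu, hux⟩ := fr.transP x
    have hmv : u • blk b ≠ blk b := by rw [← fr.equiv, hux]; exact hOB x hx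
    have hex : ∀ (k : ℕ) (m : kerN H Y) (i : ZMod p),
        ∃ i' : ZMod p, E i' • u ^ k • b = (m : H) • E i • u ^ k • b := fun k m i =>
      fr.fibre _ _ (by rw [fr.blk_smul m.2, fr.blk_E])
    choose f hf using hex
    have hinj : ∀ k m, Function.Injective (f k m) := fun k m i j e =>
      fr.E_inj (MulAction.injective (m : H) ((hf k m i).symm.trans ((congrArg (fun l => E l • u ^ k • b) e).trans (hf k m j))))
    let π : ℕ → kerN H Y → Equiv.Perm (ZMod p) := fun k m =>
      Equiv.ofBijective (f k m) (Finite.injective_iff_bijective.1 (hinj k m))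
    have hπ : ∀ k m i, E (π k m i) • u ^ k • b = (m : H) • E i • u ^ k • b := hf
    let σ : kerN H Y → kerN H Y := fun m => ⟨u⁻¹ * m * u⁻¹⁻¹,
      (MulAction.toPermHom H Y).normal_ker.conj_mem _ m.2 u⁻¹⟩
    have hσ : ∀ k m, π (k + 1) m = π k (σ m) := by
      intro k m
      refine Equiv.ext fun i => fr.E_inj (x := u ^ (k + 1) • b) ?_
      have e1 : ∀ i, E i * u = u * E i := fun i => fr.commP _ (fr.memP i) _ hu
      rw [hπ, pow_succ', mul_smul, ← mul_smul (E i), e1, ← mul_smul (E (π k (σ m) i)), e1,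
        mul_smul, mul_smul u (E (π k (σ m) i)), hπ k (σ m) i]
      show (m : H) • u • E i • u ^ k • b = u • (u⁻¹ * (m : H) * u⁻¹⁻¹) • E i • u ^ k • b
      rw [inv_inv, mul_smul (u⁻¹ * (m : H)), mul_smul u⁻¹, smul_inv_smul]
    obtain ⟨t, ht⟩ : ∃ t : ZMod p, E t • b = u ^ p • b :=
      fr.fibre b _ (fr.blk_smul (fr.pow_mem_kerN hu) b).symm
    have hπ0 : ∀ m i, E (π 0 m i) • b = (m : H) • E i • b := fun m i => by
      have := hπ 0 m i
      rwa [pow_zero, one_smul] at this
    have hπ1 : ∀ m i, E (π 1 m i) • x = (m : H) • E i • x := fun m i => by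
      have := hπ 1 m i
      rwa [pow_one, hux] at this
    have ht' : ∀ m j, π p m j + t = π 0 m (j + t) := by
      intro m j
      refine fr.E_inj (x := b) ?_
      rw [hπ0, fr.add, fr.add, mul_smul, mul_smul, ht, hπ]
    have h2' : ∀ d d' : ZMod p, d ≠ 0 → d' ≠ 0 → ∃ m, π 0 m 0 = 0 ∧ π 0 m d = d' := by
      intro d d' hd hd'
      obtain ⟨n, hn, hn1, hn2⟩ := h2 b (E d • b) b (E d' • b) (fr.blk_E d b).symm rfl
        (fr.blk_E d' b).symm (fun e => hd (fr.eq_zero d b e.symm))
        (fun e => hd' (fr.eq_zero d' b e.symm))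
      refine ⟨⟨n, hn⟩, fr.E_inj (x := b) ?_, fr.E_inj (x := b) ?_⟩
      · rw [hπ0, fr.E_zero, one_smul]; exact hn1
      · rw [hπ0]; exact hn2
    let Ob : Set X := orbit (stabilizer (kerN H Y) b) x
    have hObO : Ob ⊆ O := by
      rintro _ ⟨m, rfl⟩
      exact c.inv ((m : kerN H Y) : H) m.2 x hx
    have hObinv : ∀ (m : kerN H Y), m ∈ stabilizer (kerN H Y) b →
        ∀ y, (m : H) • y ∈ Ob ↔ y ∈ Ob := by
      intro m hm y
      have e : (⟨m, hm⟩ : stabilizer (kerN H Y) b) • y = (m : H) • y := rfl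
      refine ⟨fun h => ?_, fun h => ?_⟩
      · have := mem_orbit_of_mem_orbit (⟨m, hm⟩ : stabilizer (kerN H Y) b)⁻¹ h
        rwa [← e, inv_smul_smul] at this
      · exact e ▸ mem_orbit_of_mem_orbit (⟨m, hm⟩ : stabilizer (kerN H Y) b) h
    let S : Finset (ZMod p) := Finset.univ.filter fun i => E i • x ∈ Ob
    have memS : ∀ {i}, i ∈ S ↔ E i • x ∈ Ob := by simp [S]
    have hS0 : (0 : ZMod p) ∈ S := memS.2 (by rw [fr.E_zero, one_smul]; exact mem_orbit_self x)
    have hne : S ≠ Finset.univ := by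
      intro hu'
      have hsub : {w | blk w = blk x} ⊆ O := fun w hw => by
        obtain ⟨i, rfl⟩ := fr.fibre x w hw.symm
        exact hObO (memS.1 (hu' ▸ Finset.mem_univ i))
      have := Set.ncard_le_ncard hsub
      rw [fr.fibre_card] at this
      have := c.card_O
      omega
    have hS : ∀ m i j, π 1 m j - π 0 m i ∈ S ↔ j - i ∈ S := by
      intro m i j
      let m' : kerN H Y := ⟨E (-π 0 m i), fr.E_mem _⟩ * m * ⟨E i, fr.E_mem i⟩
      have hm' : m' ∈ stabilizer (kerN H Y) b := by
        show (E (-π 0 m i) * (m : H) * E i) • b = b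
        rw [mul_smul, mul_smul, ← hπ0, ← mul_smul, ← fr.add, neg_add_cancel, fr.E_zero, one_smul]
      have e : (m' : H) • E (j - i) • x = E (π 1 m j - π 0 m i) • x := by
        show (E (-π 0 m i) * (m : H) * E i) • E (j - i) • x = _
        rw [mul_smul, mul_smul, ← mul_smul (E i), ← fr.add, add_sub_cancel, ← hπ1, ← mul_smul,
          ← fr.add, neg_add_eq_sub]
      rw [memS, memS, ← e]
      exact hObinv m' hm' _
    obtain ⟨z, hz | hz⟩ := circ_point c.two σ hσ t ht' h2' ⟨0, hS0⟩ hne hS
    · left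
      refine memC.2 (fr.stab_eq fun n hn hnb => ?_)
      obtain ⟨i, hi⟩ := fr.fibre x (n • x) (fr.blk_smul hn x).symm
      have hiS : i ∈ S := memS.2 (hi ▸ ⟨⟨⟨n, hn⟩, hnb⟩, rfl⟩)
      rw [hz, Finset.mem_singleton] at hiS hS0
      rw [← hi, hiS, ← hS0, fr.E_zero, one_smul]
    · right
      have hzS : z ∉ S := by rw [hz]; exact Finset.notMem_erase z _
      refine ⟨E z • x, memC.2 (fr.stab_eq fun n hn hnb => ?_), fr.blk_E z x, ?_⟩
      · obtain ⟨i, hi⟩ := fr.fibre x (n • E z • x)
          (by rw [fr.blk_smul hn, fr.blk_E])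
        by_contra hne'
        have hiz : i ≠ z := fun e => hne' (by rw [← hi, e])
        have hiS : i ∈ S := by rw [hz]; exact Finset.mem_erase.2 ⟨hiz, Finset.mem_univ i⟩
        refine hzS (memS.2 ((hObinv ⟨n, hn⟩ hnb _).1 ?_))
        rw [← hi]
        exact memS.1 hiS
      · have hsub : {w | blk w = blk x} \ {E z • x} ⊆ O := by
          rintro w ⟨hw, hwz⟩
          obtain ⟨i, rfl⟩ := fr.fibre x w (Eq.symm hw)
          refine hObO (memS.1 ?_)
          rw [hz]
          exact Finset.mem_erase.2 ⟨fun e => hwz (e ▸ rfl), Finset.mem_univ i⟩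
        refine (eq_of_subset_of_card_add_one hsub ?_ c.card_O).symm
        rw [Set.ncard_sdiff_singleton_of_mem (show E z • x ∈ {w | blk w = blk x} from fr.blk_E z x),
          fr.fibre_card]
        have := hp.pos
        omega
  by_cases hall : ∀ x ∈ O, x ∈ C
  · have hins : insert b O = C := by
      refine Set.eq_of_subset_of_ncard_le (Set.insert_subset hbC hall) ?_
      rw [Set.ncard_insert_of_notMem c.notMem, c.card_O]
      exact hCle
    refine c.noEquiv (fun x y => stabilizer (kerN H Y) x = stabilizer (kerN H Y) y)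
      ⟨fun _ => rfl, Eq.symm, Eq.trans⟩ (fun h x y e => fr.stab_smul h e) fun x => ?_
    rw [← Set.mem_insert_iff, hins, memC]
    exact eq_comm
  push Not at hall
  obtain ⟨x, hx, hxC⟩ := hall
  obtain ⟨z, hzC, hzx, hO⟩ := (hdich x hx).resolve_left hxC
  have hfix : ∀ k : H, k • b = b → k • blk x = blk x := by
    intro k hk
    have hkx := c.inv k hk x hx
    rw [hO] at hkx
    rw [← fr.equiv]
    exact hkx.1
  have hK : ∀ k : H, k • b = b → k ∈ kerN H Y := by
    intro k hk
    rcases fr.blocks_cases with h | h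
    · exfalso
      obtain ⟨j, hjb, hjx⟩ : ∃ j : Y, j ≠ blk b ∧ j ≠ blk x := by
        by_contra hcon
        push Not at hcon
        have hsub : (Set.univ : Set Y) ⊆ {blk b, blk x} := fun j _ => by
          by_cases e : j = blk b
          · exact Or.inl e
          · exact Or.inr (hcon j e)
        have h1 := Set.ncard_le_ncard hsub
        rw [Set.ncard_univ, fr.cardY] at h1
        have h2'' := (Set.ncard_insert_le (blk b) {blk x}).trans
          (by rw [Set.ncard_singleton])
        have := hp.two_le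
        have := c.two
        omega
      obtain ⟨g, hg, hg'⟩ := fr.stab_transitive h (hOB x hx) hjb
      rw [hfix g hg] at hg'
      exact hjx hg'.symm
    · exact h k _ _ (hOB x hx).symm (by rw [← fr.equiv, hk]) (hfix k hk)
  obtain ⟨u, hu, huz⟩ := fr.transP z
  have hmv : u • blk b ≠ blk b := by rw [← fr.equiv, huz, hzx]; exact hOB x hx
  have hpow : ∀ k : ℕ, u ^ k • b ∈ C := by
    intro k
    induction k with
    | zero => rwa [pow_zero, one_smul]
    | succ k ih =>
      refine memC.2 ?_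
      rw [pow_succ', mul_smul, fr.stab_smul u (memC.1 ih), huz, memC.1 hzC]
  have hCge : p ≤ C.ncard := by
    have hinj : Function.Injective fun k : Fin p => (⟨u ^ (k : ℕ) • b, hpow k⟩ : C) := by
      intro k l e
      have e' : u ^ (k : ℕ) • b = u ^ (l : ℕ) • b := congrArg Subtype.val e
      refine Fin.ext (fr.cycle_blocks hu hmv k.2 l.2 ?_)
      rw [← fr.equiv, ← fr.equiv, e']
    have := Nat.card_le_card_of_injective _ hinj
    rwa [Nat.card_fin, Nat.card_coe_set_eq] at this
  refine c.noWitt (stabilizer H b) le_rfl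
    (fun L' hL' hcard => Subgroup.eq_of_le_of_card_ge hL' hcard.ge) ?_
  have e : {y : X | ∀ l ∈ stabilizer H b, l • y = y} = C := by
    ext y
    rw [memC]
    refine ⟨fun hy => fr.stab_eq fun n _ hnb => hy n hnb, fun hy l hl => ?_⟩
    have hl' : (⟨l, hK l hl⟩ : kerN H Y) ∈ stabilizer (kerN H Y) b := hl
    rw [← hy] at hl'
    exact hl'
  rw [e]
  exact le_antisymm hCle hCge

end Frame

end Cfsg.Agent.PermB.TwoPSq
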