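import Cfsg.Agent.PermB.TwoPSq.Solv
import Mathlib.GroupTheory.GroupAction.Blocks
import Mathlib.GroupTheory.PGroup
import Mathlib.Data.Set.Card

/-!
The configuration of a point stabiliser in a hypothetical 2-transitive group of degree `p² + 1`
with a block of size `p`: block system, Sylow subgroup and the kernel on blocks.
-/

set_option autoImplicit false
set_option linter.style.haveILetI false

namespace Cfsg.Agent.PermB.TwoPSq

open MulAction
open scoped Pointwise

variable {H X : Type*} [Group H] [MulAction H X]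

/-- The point stabiliser of a hypothetical counterexample, acting on the remaining points. -/
structure Cfg (H : Type*) {X : Type*} [Group H] [MulAction H X] (p : ℕ) (b : X) (B O : Set X) :
    Prop where
  two : p ≠ 2
  faithful : ∀ h : H, (∀ x : X, h • x = x) → h = 1
  trans : IsPretransitive H X
  card : Nat.card X = p ^ 2
  block : IsBlock H B
  mem : b ∈ B
  card_B : B.ncard = p
  card_O : O.ncard + 1 = p
  notMem : b ∉ O
  inv : ∀ k : H, k • b = b → ∀ x ∈ O, k • x ∈ O
  notSubset : ¬ O ⊆ B
  twist : ∃ θ : stabilizer H b ≃* stabilizer H b,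
    ∀ k : stabilizer H b, (∀ x ∈ B, (k : H) • x = x) → ∀ x ∈ O, (θ k : H) • x = x
  noEquiv : ∀ r : X → X → Prop, Equivalence r → (∀ (h : H) x y, r x y → r (h • x) (h • y)) →
    (∀ x, r b x ↔ x = b ∨ x ∈ O) → False
  noWitt : ∀ L : Subgroup H, L ≤ stabilizer H b →
    (∀ L' : Subgroup H, L' ≤ stabilizer H b → Nat.card L' = Nat.card L → L' = L) →
    {x : X | ∀ l ∈ L, l • x = x}.ncard = p → False
  noSharp : (∀ k : H, k • b = b → k ≠ 1 → ∀ x, x ≠ b → k • x ≠ x) →
    Nat.card (stabilizer H b) ∣ p - 1 → False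

/-- A block system of `p` blocks of size `p`, with an abelian regular subgroup `P`, and `E` a
parametrised subgroup of order `p` of `P` fixing every block. -/
structure Frame {H X Y : Type*} [Group H] [MulAction H X] [MulAction H Y] (p : ℕ) (b : X)
    (B : Set X) (blk : X → Y) (E : ZMod p → H) (P : Subgroup H) : Prop where
  equiv : ∀ (h : H) x, blk (h • x) = h • blk x
  surj : Function.Surjective blk
  cardY : Nat.card Y = p
  memB : ∀ x, x ∈ B ↔ blk x = blk b
  fibre : ∀ x x' : X, blk x = blk x' → ∃ i : ZMod p, E i • x = x'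
  eq_zero : ∀ (i : ZMod p) (x : X), E i • x = x → i = 0
  add : ∀ i j : ZMod p, E (i + j) = E i * E j
  fixY : ∀ (i : ZMod p) (j : Y), E i • j = j
  memP : ∀ i : ZMod p, E i ∈ P
  commP : ∀ u ∈ P, ∀ v ∈ P, u * v = v * u
  transP : ∀ x, ∃ u ∈ P, u • b = x
  not_dvd : ¬ p ∣ Nat.card (stabilizer H b)

variable [Finite H] [Finite X] {p : ℕ} [Fact p.Prime] {b : X} {B O : Set X}

/-- The order of a two point stabiliser is prime to `p`. -/
theorem Cfg.not_dvd (c : Cfg H p b B O) : ¬ p ∣ Nat.card (stabilizer H b) := by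
  classical
  have hp : p.Prime := Fact.out
  haveI := c.trans
  intro hdvd
  obtain ⟨k, hk⟩ := exists_prime_orderOf_dvd_card' p hdvd
  rw [← Subgroup.orderOf_coe] at hk
  have hz : IsPGroup p (Subgroup.zpowers (k : H)) :=
    IsPGroup.of_card (n := 1) (by rw [Nat.card_zpowers, hk, pow_one])
  obtain ⟨P, hP⟩ := hz.exists_le_sylow
  haveI : IsPretransitive (P : Subgroup H) X := PermLib.sylow_isPretransitive c.card P
  set S : Subgroup (P : Subgroup H) := stabilizer (P : Subgroup H) b with hS
  set F : Set X := {x | ∀ s ∈ S, s • x = x}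
  have hbF : b ∈ F := fun s hs => hs
  have hcard : ∀ x : X, Nat.card (stabilizer (P : Subgroup H) x) = Nat.card S := by
    intro x
    obtain ⟨u, rfl⟩ := exists_smul_eq (P : Subgroup H) b x
    exact Nat.card_congr (stabilizerEquivStabilizer (g := u) rfl).symm.toEquiv
  have hFeq : ∀ x ∈ F, stabilizer (P : Subgroup H) x = S := fun x hx =>
    (Subgroup.eq_of_le_of_card_ge (fun s hs => hx s hs) (hcard x).le).symm
  have hblock : IsBlock (P : Subgroup H) F := by
    rw [isBlock_iff_smul_eq_of_nonempty]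
    rintro u ⟨y, ⟨x, hx, rfl⟩, hy⟩
    have key : ∀ s, s ∈ S ↔ u⁻¹ * s * u ∈ S := fun s => by
      conv_lhs => rw [← hFeq _ hy]
      conv_rhs => rw [← hFeq _ hx]
      simp only [mem_stabilizer_iff, mul_smul, inv_smul_eq_iff]
    refine Set.eq_of_subset_of_ncard_le ?_ (Set.ncard_smul_set u F).ge
    rintro _ ⟨z, hz', rfl⟩ s hs
    have := hz' _ ((key s).1 hs)
    rwa [mul_smul, mul_smul, inv_smul_eq_iff] at this
  have hne : F ≠ Set.univ := by
    intro hall
    have h1 : (k : H) = 1 := c.faithful _ fun x => by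
      have hx : x ∈ F := hall ▸ Set.mem_univ x
      exact hx (⟨(k : H), hP (Subgroup.mem_zpowers _)⟩ : (P : Subgroup H)) k.2
    rw [h1, orderOf_one] at hk
    exact hp.ne_one hk.symm
  have hF : F.ncard ≤ p := by
    have hd := hblock.ncard_dvd_card ⟨b, hbF⟩
    rw [c.card] at hd
    obtain ⟨i, hi, hFi⟩ := (Nat.dvd_prime_pow hp).1 hd
    have hlt : F.ncard < p ^ 2 := by
      rw [← c.card, ← Set.ncard_univ]
      exact Set.ncard_lt_ncard (Set.ssubset_univ_iff.2 hne)
    rw [hFi] at hlt ⊢
    have := (Nat.pow_lt_pow_iff_right hp.one_lt).1 hlt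
    calc p ^ i ≤ p ^ 1 := Nat.pow_le_pow_right hp.pos (by omega)
      _ = p := pow_one p
  have hsub : ∀ T : Set X, T.ncard < p → (∀ h : H, h • b = b → ∀ x ∈ T, h • x ∈ T) → T ⊆ F := by
    intro T hT hinv x hx s hs
    obtain ⟨n, hn⟩ := (P.isPGroup'.to_subgroup S).card_orbit x
    have hsubT : orbit S x ⊆ T := by
      rintro _ ⟨t, rfl⟩
      exact hinv ((t : (P : Subgroup H)) : H) t.2 x hx
    have hle := Set.ncard_le_ncard hsubT
    rw [← Nat.card_coe_set_eq, hn] at hle
    have hn0 : n = 0 := by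
      by_contra h
      have := Nat.le_self_pow h p
      omega
    have h1 : (orbit S x).Subsingleton := by
      rw [← Set.ncard_le_one_iff_subsingleton, ← Nat.card_coe_set_eq, hn, hn0, pow_zero]
    exact h1 ⟨⟨s, hs⟩, rfl⟩ (mem_orbit_self x)
  have hBF : B ⊆ F := by
    intro x hx
    by_cases hxb : x = b
    · exact hxb ▸ hbF
    refine hsub (B \ {b}) ?_ ?_ ⟨hx, hxb⟩
    · rw [Set.ncard_sdiff_singleton_of_mem c.mem, c.card_B]
      have := hp.pos
      omega
    · rintro h hh y ⟨hy, hyb⟩
      refine ⟨?_, fun e => hyb (MulAction.injective h (e.trans hh.symm))⟩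
      have hB : h • B = B :=
        (isBlock_iff_smul_eq_of_mem.1 c.block) c.mem (show h • b ∈ B by rw [hh]; exact c.mem)
      rw [← hB]
      exact Set.smul_mem_smul_set hy
  have hBe : B = F := Set.eq_of_subset_of_ncard_le hBF (by rw [c.card_B]; exact hF)
  exact c.notSubset (hBe ▸ hsub O (by have := c.card_O; omega) c.inv)

/-- The block system of a configuration. -/
theorem Cfg.exists_frame (c : Cfg H p b B O) :
    ∃ (blk : X → orbit H B) (E : ZMod p → H) (P : Subgroup H), Frame p b B blk E P := by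
  classical
  have hp : p.Prime := Fact.out
  haveI := c.trans
  haveI : FaithfulSMul H X := ⟨fun {g g'} h => by
    refine (inv_mul_eq_one.1 (c.faithful (g⁻¹ * g') fun x => ?_))
    rw [mul_smul, ← h x, inv_smul_smul]⟩
  have hne : B.Nonempty := ⟨b, c.mem⟩
  choose τ hτ using fun x : X => exists_smul_eq H b x
  let blk : X → orbit H B := fun x => ⟨τ x • B, mem_orbit B (τ x)⟩
  have hmem : ∀ x, x ∈ (blk x : Set X) := fun x => by
    have := Set.smul_mem_smul_set (a := τ x) c.mem
    rwa [hτ] at this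
  have huniq : ∀ (j : orbit H B) x, x ∈ (j : Set X) → blk x = j := by
    rintro ⟨_, h, rfl⟩ x hx
    refine Subtype.ext (by_contra fun hne' => ?_)
    exact Set.disjoint_left.1 (c.block hne') (hmem x) hx
  have hequiv : ∀ (h : H) x, blk (h • x) = h • blk x := fun h x => huniq _ _ (by
    rw [orbit.coe_smul]
    exact Set.smul_mem_smul_set (hmem x))
  have hsurj : Function.Surjective blk := by
    rintro ⟨_, h, rfl⟩
    exact ⟨h • b, huniq _ _ (Set.smul_mem_smul_set c.mem)⟩
  have hB : blk b = ⟨B, mem_orbit_self B⟩ := huniq _ _ c.mem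
  have hcardY : Nat.card (orbit H B) = p := by
    have h := c.block.ncard_block_mul_ncard_orbit_eq hne
    rw [c.card_B, c.card, pow_two] at h
    rw [Nat.card_coe_set_eq]
    exact Nat.eq_of_mul_eq_mul_left hp.pos h
  obtain ⟨P⟩ : Nonempty (Sylow p H) := inferInstance
  have hPcard : Nat.card (P : Subgroup H) = p ^ 2 := by
    rw [P.card_eq_multiplicity, PermLib.card_eq_mul_card_stabilizer (G := H) b, c.card,
      Nat.factorization_mul (pow_ne_zero _ hp.ne_zero) Nat.card_pos.ne', Finsupp.add_apply,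
      hp.factorization_pow, Finsupp.single_eq_same,
      Nat.factorization_eq_zero_of_not_dvd c.not_dvd, add_zero]
  haveI : IsPretransitive (P : Subgroup H) X := PermLib.sylow_isPretransitive c.card P
  have hreg : ∀ u ∈ (P : Subgroup H), ∀ x : X, u • x = x → u = 1 := by
    intro u hu x hx
    have h1 : Nat.card (stabilizer (P : Subgroup H) x) = 1 := by
      have h := PermLib.card_eq_mul_card_stabilizer (G := (P : Subgroup H)) x
      rw [hPcard, c.card] at h
      exact (Nat.mul_eq_left (pow_ne_zero 2 hp.ne_zero)).1 h.symm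
    have h2 : (⟨u, hu⟩ : (P : Subgroup H)) ∈ stabilizer (P : Subgroup H) x := hx
    rw [Subgroup.eq_bot_of_card_eq _ h1, Subgroup.mem_bot] at h2
    exact congrArg Subtype.val h2
  have hcommP : ∀ u v : (P : Subgroup H), u * v = v * u := fun u v => by
    exact (IsPGroup.isMulCommutative_of_card_eq_prime_sq hPcard).is_comm.comm u v
  haveI : IsPretransitive (P : Subgroup H) (orbit H B) := ⟨fun i j => by
    obtain ⟨x, rfl⟩ := hsurj i
    obtain ⟨y, rfl⟩ := hsurj j
    obtain ⟨u, rfl⟩ := exists_smul_eq (P : Subgroup H) x y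
    exact ⟨u, (hequiv (u : H) x).symm⟩⟩
  have hS0 : Nat.card (stabilizer (P : Subgroup H) (blk b)) = p := by
    have h := PermLib.card_eq_mul_card_stabilizer (G := (P : Subgroup H)) (blk b)
    rw [hPcard, hcardY, pow_two] at h
    exact (Nat.eq_of_mul_eq_mul_left hp.pos h).symm
  obtain ⟨q, hq⟩ := exists_prime_orderOf_dvd_card' (G := stabilizer (P : Subgroup H) (blk b)) p
    hS0.symm.dvd
  rw [← Subgroup.orderOf_coe, ← Subgroup.orderOf_coe] at hq
  have hqY : ∀ j : orbit H B, ((q : (P : Subgroup H)) : H) • j = j := by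
    intro j
    obtain ⟨u, rfl⟩ := exists_smul_eq (P : Subgroup H) (blk b) j
    have e := q.2
    rw [mem_stabilizer_iff] at e
    show (q : (P : Subgroup H)) • u • blk b = u • blk b
    rw [smul_smul, hcommP, ← smul_smul, e]
  set q' : H := ((q : (P : Subgroup H)) : H)
  have hfix : ∀ (n : ℕ) (j : orbit H B), q' ^ n • j = j := by
    intro n j
    induction n with
    | zero => rw [pow_zero, one_smul]
    | succ n ih => rw [pow_succ, mul_smul, hqY, ih]
  have hE0 : ∀ n : ℕ, q' ^ n = q' ^ (n : ZMod p).val := by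
    intro n
    rw [ZMod.val_natCast]
    exact pow_eq_pow_mod n (hq ▸ pow_orderOf_eq_one q')
  let E : ZMod p → H := fun i => q' ^ i.val
  have hEeq : ∀ (i : ZMod p) (x : X), E i • x = x → i = 0 := by
    intro i x hx
    have h1 : q' ^ i.val = 1 := hreg _ (pow_mem (q : (P : Subgroup H)).2 _) x hx
    have := orderOf_dvd_of_pow_eq_one h1
    rw [hq] at this
    exact (ZMod.val_eq_zero i).1 (Nat.eq_zero_of_dvd_of_lt this i.val_lt)
  have hfib : ∀ x x' : X, blk x = blk x' → ∃ i : ZMod p, E i • x = x' := by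
    intro x x' hxx
    let f : ZMod p → (blk x : Set X) := fun i => ⟨E i • x, by
      have : blk (E i • x) = blk x := by rw [hequiv, hfix]
      rw [← this]
      exact hmem _⟩
    have hinj : Function.Injective f := by
      intro i j hij
      have e : E i • x = E j • x := congrArg Subtype.val hij
      have e' : E (i - j) • E j • x = E i • x := by
        rw [smul_smul]
        congr 1
        show q' ^ (i - j).val * q' ^ j.val = q' ^ i.val
        rw [← pow_add, hE0]
        simp only [Nat.cast_add, ZMod.natCast_zmod_val, sub_add_cancel]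
      rw [e] at e'
      exact sub_eq_zero.1 (hEeq _ _ e')
    have hcardj : Nat.card (blk x : Set X) = p := by
      show Nat.card ↥(τ x • B) = p
      rw [Nat.card_coe_set_eq, Set.ncard_smul_set, c.card_B]
    obtain ⟨i, hi⟩ := ((Nat.bijective_iff_injective_and_card f).2
      ⟨hinj, by rw [hcardj, Nat.card_zmod]⟩).2 ⟨x', hxx ▸ hmem x'⟩
    exact ⟨i, congrArg Subtype.val hi⟩
  refine ⟨blk, E, (P : Subgroup H), hequiv, hsurj, hcardY, ?_, hfib, hEeq, ?_,
    fun i j => hfix _ j, fun i => pow_mem (q : (P : Subgroup H)).2 _, ?_, ?_, c.not_dvd⟩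
  · intro x
    refine ⟨fun hx => (huniq _ _ hx).trans hB.symm, fun h => ?_⟩
    have hm := hmem x
    rw [h, hB] at hm
    exact hm
  · intro i j
    show q' ^ (i + j).val = q' ^ i.val * q' ^ j.val
    rw [← pow_add, hE0 (i.val + j.val)]
    simp only [Nat.cast_add, ZMod.natCast_zmod_val]
  · intro u hu v hv
    exact congrArg Subtype.val (hcommP ⟨u, hu⟩ ⟨v, hv⟩)
  · intro x
    obtain ⟨u, hu⟩ := exists_smul_eq (P : Subgroup H) b x
    exact ⟨u, u.2, hu⟩

end Cfsg.Agent.PermB.TwoPSq
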