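import Cfsg.Agent.PermB.TwoPSq.Frame

/-!
The kernel of the action on a block system of `p` blocks of size `p`.
-/

set_option autoImplicit false
set_option linter.style.haveILetI false
set_option linter.unusedSectionVars false

namespace Cfsg.Agent.PermB.TwoPSq

open MulAction
open scoped Pointwise

variable {H X Y : Type*} [Group H] [MulAction H X] [MulAction H Y]
  {p : ℕ} {b : X} {B O : Set X} {blk : X → Y} {E : ZMod p → H} {P : Subgroup H}

/-- The kernel on blocks. -/
abbrev kerN (H Y : Type*) [Group H] [MulAction H Y] : Subgroup H := (MulAction.toPermHom H Y).ker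

theorem mem_kerN {n : H} : n ∈ kerN H Y ↔ ∀ j : Y, n • j = j := by
  rw [MonoidHom.mem_ker, Equiv.ext_iff]
  exact Iff.rfl

namespace Frame

variable (fr : Frame p b B blk E P)
include fr

theorem E_zero : E 0 = 1 := by
  have h := fr.add 0 0
  rw [add_zero] at h
  exact mul_eq_left.1 h.symm

theorem E_natCast (n : ℕ) : E (n : ZMod p) = E 1 ^ n := by
  induction n with
  | zero => rw [Nat.cast_zero, fr.E_zero, pow_zero]
  | succ n ih => rw [Nat.cast_succ, fr.add, ih, pow_succ]

theorem E_eq_pow [NeZero p] (i : ZMod p) : E i = E 1 ^ i.val := by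
  rw [← fr.E_natCast, ZMod.natCast_zmod_val]

theorem E_neg (i : ZMod p) : E (-i) = (E i)⁻¹ :=
  eq_inv_of_mul_eq_one_left (by rw [← fr.add, neg_add_cancel, fr.E_zero])

theorem orderOf_E [Fact p.Prime] : orderOf (E 1) = p := by
  refine orderOf_eq_prime ?_ fun h => ?_
  · rw [← fr.E_natCast, ZMod.natCast_self, fr.E_zero]
  · exact one_ne_zero (fr.eq_zero 1 b (by rw [h, one_smul]))

theorem E_mem (i : ZMod p) : E i ∈ kerN H Y := mem_kerN.2 (fr.fixY i)

theorem blk_E (i : ZMod p) (x : X) : blk (E i • x) = blk x := by rw [fr.equiv, fr.fixY]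

theorem blk_smul {n : H} (hn : n ∈ kerN H Y) (x : X) : blk (n • x) = blk x := by
  rw [fr.equiv, mem_kerN.1 hn]

theorem E_inj {i j : ZMod p} {x : X} (h : E i • x = E j • x) : i = j := by
  refine (sub_eq_zero.1 (fr.eq_zero (i - j) (E j • x) ?_))
  rw [smul_smul, ← fr.add, sub_add_cancel, h]

theorem fibre_card (x : X) : {y : X | blk y = blk x}.ncard = p := by
  have e : {y : X | blk y = blk x} = Set.range fun i : ZMod p => E i • x := by
    ext y
    refine ⟨fun h => ?_, ?_⟩
    · obtain ⟨i, hi⟩ := fr.fibre x y h.symm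
      exact ⟨i, hi⟩
    · rintro ⟨i, rfl⟩
      exact fr.blk_E i x
  rw [e, Set.ncard_range_of_injective fun i j h => fr.E_inj h, Nat.card_zmod]

theorem orbit_eq (x : X) : orbit (kerN H Y) x = {y : X | blk y = blk x} := by
  ext y
  refine ⟨?_, fun h => ?_⟩
  · rintro ⟨n, rfl⟩
    exact fr.blk_smul n.2 x
  · obtain ⟨i, hi⟩ := fr.fibre x y h.symm
    exact ⟨⟨E i, fr.E_mem i⟩, hi⟩

theorem card_stab [Fact p.Prime] (x y : X) :
    Nat.card (stabilizer (kerN H Y) x) = Nat.card (stabilizer (kerN H Y) y) := by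
  have h : ∀ z : X, p * Nat.card (stabilizer (kerN H Y) z) = Nat.card (kerN H Y) := fun z => by
    rw [← PermLib.card_orbit_mul_card_stabilizer (G := kerN H Y) z, Nat.card_coe_set_eq,
      fr.orbit_eq, fr.fibre_card]
  exact Nat.eq_of_mul_eq_mul_left (Fact.out : p.Prime).pos ((h x).trans (h y).symm)

theorem stab_eq [Finite H] [Fact p.Prime] {x : X}
    (h : ∀ n ∈ kerN H Y, n • b = b → n • x = x) :
    stabilizer (kerN H Y) x = stabilizer (kerN H Y) b := by
  have hle : stabilizer (kerN H Y) b ≤ stabilizer (kerN H Y) x := fun n hn => h n n.2 hn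
  exact (Subgroup.eq_of_le_of_card_ge hle (fr.card_stab x b).le).symm

/-- The points of a block, with the action of the kernel. -/
def block (j : Y) : SubMulAction (kerN H Y) X where
  carrier := {x | blk x = j}
  smul_mem' n _ hx := (fr.blk_smul n.2 _).trans hx

theorem mem_block {j : Y} {x : X} : x ∈ fr.block j ↔ blk x = j := Iff.rfl

theorem card_block (j : Y) : Nat.card (fr.block j) = p := by
  obtain ⟨x, rfl⟩ := fr.surj j
  exact (Nat.card_coe_set_eq _).trans (fr.fibre_card x)

theorem block_isPretransitive (j : Y) : IsPretransitive (kerN H Y) (fr.block j) :=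
  ⟨fun x y => by
    obtain ⟨i, hi⟩ := fr.fibre x y (x.2.trans y.2.symm)
    exact ⟨⟨E i, fr.E_mem i⟩, Subtype.ext hi⟩⟩

theorem card_stab_H (y : X) : Nat.card (stabilizer H y) = Nat.card (stabilizer H b) := by
  obtain ⟨u, -, hu⟩ := fr.transP y
  exact Nat.card_congr (stabilizerEquivStabilizer hu.symm).symm.toEquiv

variable [Finite H] [Finite X] [Fact p.Prime]

theorem eq_one_of_block (c : Cfg H p b B O) {n : H} (hn : n ∈ kerN H Y) (j : Y)
    (h : ∀ x, blk x = j → n • x = x) : n = 1 := by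
  classical
  have hp : p.Prime := Fact.out
  refine c.faithful n fun x => ?_
  obtain ⟨M, hM⟩ : ∃ M : Subgroup (kerN H Y),
      M = (MulAction.toPermHom (kerN H Y) (fr.block j)).ker := ⟨_, rfl⟩
  haveI : M.Normal := hM ▸ inferInstance
  have hMj : ∀ (m : kerN H Y), m ∈ M → ∀ y, blk y = j → (m : H) • y = y := by
    intro m hm y hy
    rw [hM, MonoidHom.mem_ker] at hm
    exact congrArg Subtype.val (Equiv.ext_iff.1 hm ⟨y, hy⟩)
  have hnM : (⟨n, hn⟩ : kerN H Y) ∈ M := by
    rw [hM, MonoidHom.mem_ker]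
    exact Equiv.ext fun y => Subtype.ext (h y y.2)
  haveI := fr.block_isPretransitive (blk x)
  have hblock : IsBlock (kerN H Y) (orbit M (⟨x, rfl⟩ : fr.block (blk x))) :=
    IsBlock.orbit_of_normal _
  have hd := hblock.ncard_dvd_card ⟨_, mem_orbit_self _⟩
  rw [fr.card_block] at hd
  rcases hp.eq_one_or_self_of_dvd _ hd with h1 | h1
  · have := Set.ncard_le_one_iff_subsingleton.1 h1.le (mem_orbit _ (⟨_, hnM⟩ : M))
      (mem_orbit_self (M := M) (⟨x, rfl⟩ : fr.block (blk x)))
    exact congrArg Subtype.val this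
  · exfalso
    obtain ⟨y, hy⟩ := fr.surj j
    let f : M →* stabilizer H y :=
      ((kerN H Y).subtype.comp M.subtype).codRestrict _ fun m => hMj m m.2 y hy
    have hf : Function.Injective f := fun u v e =>
      Subtype.ext (Subtype.ext (congrArg (fun w : stabilizer H y => (w : H)) e))
    refine fr.not_dvd (dvd_trans ?_ (fr.card_stab_H y ▸ Subgroup.card_dvd_of_injective f hf))
    rw [← h1, ← Nat.card_coe_set_eq,
      ← PermLib.card_orbit_mul_card_stabilizer (G := M) (⟨x, rfl⟩ : fr.block (blk x))]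
    exact dvd_mul_right _ _

theorem block_faithful (c : Cfg H p b B O) (j : Y) : FaithfulSMul (kerN H Y) (fr.block j) :=
  ⟨fun {m m'} h => by
    refine (inv_mul_eq_one.1 (Subtype.ext (fr.eq_one_of_block c (m⁻¹ * m').2 j fun x hx => ?_)))
    have := congrArg Subtype.val (h ⟨x, hx⟩)
    change (m : H) • x = (m' : H) • x at this
    show ((m : H)⁻¹ * (m' : H)) • x = x
    rw [mul_smul, ← this, inv_smul_smul]⟩

/-- Either the kernel is doubly transitive on every block, or it normalises `E`. -/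
theorem two_or_normal (c : Cfg H p b B O) :
    (∀ x x' y y' : X, blk x = blk x' → blk x = blk y → blk x = blk y' → x ≠ x' → y ≠ y' →
      ∃ n ∈ kerN H Y, n • x = y ∧ n • x' = y') ∨
    (∀ n ∈ kerN H Y, n * E 1 * n⁻¹ ∈ Subgroup.zpowers (E 1)) := by
  refine or_iff_not_imp_right.2 fun hQ x x' y y' h1 h2 h3 hne hne' => ?_
  haveI := fr.block_isPretransitive (blk x)
  haveI := fr.block_faithful c (blk x)
  letI : Fintype (fr.block (blk x)) := Fintype.ofFinite _
  have hcard : Fintype.card (fr.block (blk x)) = p := by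
    rw [← Nat.card_eq_fintype_card, fr.card_block]
  rcases prime_degree_dichotomy (G := kerN H Y) hcard with h | ⟨-, -, h⟩
  · have ha : (⟨x, rfl⟩ : fr.block (blk x)) ≠ ⟨x', h1.symm⟩ := fun e =>
      hne (congrArg Subtype.val e)
    have hc : (⟨y, h2.symm⟩ : fr.block (blk x)) ≠ ⟨y', h3.symm⟩ := fun e =>
      hne' (congrArg Subtype.val e)
    obtain ⟨n, hn, hn'⟩ := is_two_pretransitive_iff.1 h ha hc
    exact ⟨n, n.2, congrArg Subtype.val hn, congrArg Subtype.val hn'⟩
  · refine absurd (fun n hn => ?_) hQ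
    obtain ⟨z, hz⟩ := Subgroup.mem_zpowers_iff.1
      (h ⟨E 1, fr.E_mem 1⟩ ⟨n, hn⟩ (by rw [← Subgroup.orderOf_coe]; exact fr.orderOf_E))
    exact Subgroup.mem_zpowers_iff.2 ⟨z, congrArg Subtype.val hz⟩

/-- Either the group is doubly transitive on blocks, or only the kernel fixes two blocks. -/
theorem blocks_cases :
    IsMultiplyPretransitive H Y 2 ∨
      ∀ (h : H) (i j : Y), i ≠ j → h • i = i → h • j = j → h ∈ kerN H Y := by
  have hp : p.Prime := Fact.out
  haveI : Finite Y := Finite.of_surjective blk fr.surj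
  letI : Fintype Y := Fintype.ofFinite Y
  have hcard : Fintype.card Y = p := by rw [← Nat.card_eq_fintype_card, fr.cardY]
  haveI : IsPretransitive (MulAction.toPermHom H Y).range Y := ⟨fun i j => by
    obtain ⟨x, rfl⟩ := fr.surj i
    obtain ⟨y, rfl⟩ := fr.surj j
    obtain ⟨u, -, hu⟩ := fr.transP x
    obtain ⟨v, -, hv⟩ := fr.transP y
    exact ⟨⟨_, v * u⁻¹, rfl⟩, by
      show (v * u⁻¹) • blk x = blk y
      rw [← fr.equiv, mul_smul, ← hu, inv_smul_smul, hv]⟩⟩
  rcases prime_degree_dichotomy (G := (MulAction.toPermHom H Y).range) hcard with h | ⟨h, -, -⟩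
  · refine Or.inl (is_two_pretransitive_iff.2 fun {a b c d} hab hcd => ?_)
    obtain ⟨⟨_, g, rfl⟩, hg, hg'⟩ := is_two_pretransitive_iff.1 h hab hcd
    exact ⟨g, hg, hg'⟩
  · refine Or.inr fun g i j hij hi hj => ?_
    exact congrArg Subtype.val (h ⟨_, g, rfl⟩ i j hij hi hj)

/-- A group doubly transitive on blocks has point stabiliser transitive on the other blocks. -/
theorem stab_transitive (h2 : IsMultiplyPretransitive H Y 2) {i j : Y} (hi : i ≠ blk b)
    (hj : j ≠ blk b) : ∃ k : H, k • b = b ∧ k • i = j := by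
  obtain ⟨g, hg, hg'⟩ := is_two_pretransitive_iff.1 h2 hi.symm hj.symm
  obtain ⟨l, hl⟩ := fr.fibre (g • b) b (by rw [fr.equiv, hg])
  exact ⟨E l * g, by rw [mul_smul, hl], by rw [mul_smul, hg', fr.fixY]⟩

theorem stab_smul {x y : X} (h : H)
    (e : stabilizer (kerN H Y) x = stabilizer (kerN H Y) y) :
    stabilizer (kerN H Y) (h • x) = stabilizer (kerN H Y) (h • y) := by
  have key : ∀ (m : kerN H Y) (z : X), m ∈ stabilizer (kerN H Y) (h • z) ↔
      (⟨h⁻¹ * m * h⁻¹⁻¹, (MulAction.toPermHom H Y).normal_ker.conj_mem _ m.2 h⁻¹⟩ : kerN H Y)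
        ∈ stabilizer (kerN H Y) z := by
    intro m z
    show (m : H) • h • z = h • z ↔ (h⁻¹ * (m : H) * h⁻¹⁻¹) • z = z
    rw [inv_inv, mul_smul, mul_smul, inv_smul_eq_iff]
  ext m
  rw [key, key, e]

/-- The `p`-th power of an element of `P` fixes every block. -/
theorem pow_mem_kerN {u : H} (hu : u ∈ P) : u ^ p ∈ kerN H Y := by
  haveI : IsPretransitive P Y := ⟨fun i j => by
    obtain ⟨x, rfl⟩ := fr.surj i
    obtain ⟨y, rfl⟩ := fr.surj j
    obtain ⟨v, hv, hv'⟩ := fr.transP x
    obtain ⟨w, hw, hw'⟩ := fr.transP y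
    exact ⟨⟨w * v⁻¹, P.mul_mem hw (P.inv_mem hv)⟩, by
      show (w * v⁻¹) • blk x = blk y
      rw [← fr.equiv, mul_smul, ← hv', inv_smul_smul, hw']⟩⟩
  have e : (kerN H Y).subgroupOf P = stabilizer P (blk b) := by
    ext v
    rw [Subgroup.mem_subgroupOf, mem_kerN, mem_stabilizer_iff]
    refine ⟨fun h => h _, fun h j => ?_⟩
    obtain ⟨w, rfl⟩ := exists_smul_eq P (blk b) j
    show v • w • blk b = w • blk b
    rw [smul_smul, show v * w = w * v from Subtype.ext (fr.commP _ v.2 _ w.2), mul_smul, h]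
  have hi : ((kerN H Y).subgroupOf P).index = p := by
    rw [e, index_stabilizer_of_transitive, fr.cardY]
  have := Subgroup.pow_index_mem ((kerN H Y).subgroupOf P) ⟨u, hu⟩
  rw [hi] at this
  exact this

/-- An element of `P` moving the first block permutes the blocks in one cycle. -/
theorem cycle_blocks {u : H} (hu : u ∈ P) (hne : u • blk b ≠ blk b) {m n : ℕ}
    (hm : m < p) (hn : n < p) (h : u ^ m • blk b = u ^ n • blk b) : m = n := by
  have hp : p.Prime := Fact.out
  have hd : Function.minimalPeriod (u • ·) (blk b) ∣ p :=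
    pow_smul_eq_iff_minimalPeriod_dvd.1 (mem_kerN.1 (fr.pow_mem_kerN hu) _)
  have hper : Function.minimalPeriod (u • ·) (blk b) = p :=
    (hp.eq_one_or_self_of_dvd _ hd).resolve_left fun h1 => hne (by
      simpa using pow_smul_eq_iff_minimalPeriod_dvd.2 (h1 ▸ dvd_refl _ :
        Function.minimalPeriod (u • ·) (blk b) ∣ 1))
  wlog hmn : m ≤ n generalizing m n with H'
  · exact (H' hn hm h.symm (le_of_not_ge hmn)).symm
  have hdd : p ∣ n - m := by
    rw [← hper, ← pow_smul_eq_iff_minimalPeriod_dvd]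
    apply MulAction.injective (u ^ m)
    change u ^ m • u ^ (n - m) • blk b = u ^ m • blk b
    rw [smul_smul, ← pow_add, Nat.add_sub_cancel' hmn, h]
  have := Nat.eq_zero_of_dvd_of_lt hdd (by omega)
  omega

end Frame

end Cfsg.Agent.PermB.TwoPSq
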