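import Cfsg.Agent.PermB.TwoPSq.Frame
import Cfsg.Agent.PermB.ZassFrobenius
import Cfsg.Agent.CharDeep.ZassAbelian
import Cfsg.Agent.Perm.Regular

/-!
Lines of a doubly transitive group of degree `p² + 1` built from a block of a point stabiliser.
-/

set_option autoImplicit false
set_option linter.style.haveILetI false
set_option linter.unusedSectionVars false

namespace Cfsg.Agent.PermB.TwoPSq

open MulAction
open scoped Pointwise

variable {G Ω : Type*} [Group G] [MulAction G Ω] [Finite G] [Finite Ω] {p : ℕ} [Fact p.Prime]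
  {a b : Ω}

/-- There is no linear space with lines of `p + 1` points on `p² + 1` points. -/
theorem witt (h2 : IsMultiplyPretransitive G Ω 2) (hΩ : Nat.card Ω = p ^ 2 + 1) (hab : a ≠ b)
    {F : Set Ω} (haF : a ∈ F) (hbF : b ∈ F) (hF : F.ncard = p + 1)
    (hinv : ∀ g : G, g • a ∈ F → g • b ∈ F → g • F = F) : False := by
  classical
  have hp : p.Prime := Fact.out
  letI : Fintype Ω := Fintype.ofFinite Ω
  have huniq : ∀ (g g' : G) (x y : Ω), x ≠ y → x ∈ g • F → y ∈ g • F → g' • a = x → g' • b = y →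
      g • F = g' • F := by
    intro g g' x y hxy hx hy hga hgb
    have h1 : (g⁻¹ * g') • F = F := hinv _
      (by rw [mul_smul, hga]; exact Set.mem_smul_set_iff_inv_smul_mem.1 hx)
      (by rw [mul_smul, hgb]; exact Set.mem_smul_set_iff_inv_smul_mem.1 hy)
    calc g • F = g • (g⁻¹ * g') • F := by rw [h1]
      _ = g' • F := by rw [smul_smul, mul_inv_cancel_left]
  choose γ hγa hγb using fun (x : Ω) (y : Ω) (hxy : x ≠ y) =>
    is_two_pretransitive_iff.1 h2 hab hxy
  let L : Ω × Ω → Finset Ω := fun q =>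
    if h : q.1 = q.2 then ∅ else (γ q.1 q.2 h • F).toFinset
  let T : Finset (Ω × Ω) := (Finset.univ : Finset Ω).offDiag
  have hmem : ∀ q ∈ T, q.1 ≠ q.2 := fun q hq => (Finset.mem_offDiag.1 hq).2.2
  have hfib : ∀ l ∈ T.image L, (T.filter fun q => L q = l).card = (p + 1) * (p + 1) - (p + 1) := by
    intro l hl
    obtain ⟨q, hq, rfl⟩ := Finset.mem_image.1 hl
    have hcard : (L q).card = p + 1 := by
      simp only [L, dif_neg (hmem q hq)]
      rw [← Set.ncard_eq_toFinset_card', Set.ncard_smul_set, hF]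
    have he : (T.filter fun r => L r = L q) = (L q).offDiag := by
      ext r
      simp only [Finset.mem_filter, Finset.mem_offDiag, T, Finset.mem_univ, true_and]
      constructor
      · rintro ⟨hr, hrl⟩
        rw [← hrl]
        simp only [L, dif_neg hr, Set.mem_toFinset]
        exact ⟨⟨a, haF, hγa _ _ hr⟩, ⟨b, hbF, hγb _ _ hr⟩, hr⟩
      · rintro ⟨h1, h2', hr⟩
        refine ⟨hr, ?_⟩
        simp only [L, dif_neg (hmem q hq), Set.mem_toFinset] at h1 h2'
        simp only [L, dif_neg (hmem q hq), dif_neg hr]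
        exact Set.toFinset_congr (huniq _ _ _ _ hr h1 h2' (hγa _ _ hr) (hγb _ _ hr)).symm
    rw [he, Finset.offDiag_card, hcard]
  have hsum := Finset.card_eq_sum_card_image L T
  rw [Finset.sum_congr rfl hfib, Finset.sum_const, smul_eq_mul, Finset.offDiag_card,
    Finset.card_univ, ← Nat.card_eq_fintype_card, hΩ] at hsum
  have hd : p + 1 ∣ (p ^ 2 + 1) * p ^ 2 := by
    refine ⟨(T.image L).card * p, ?_⟩
    have e1 : (p ^ 2 + 1) * (p ^ 2 + 1) - (p ^ 2 + 1) = (p ^ 2 + 1) * p ^ 2 := by
      rw [Nat.mul_succ (p ^ 2 + 1) (p ^ 2)]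
      omega
    have e2 : (p + 1) * (p + 1) - (p + 1) = (p + 1) * p := by
      rw [Nat.mul_succ (p + 1) p]
      omega
    rw [e1, e2] at hsum
    rw [hsum]
    ring
  have hcop : Nat.Coprime (p + 1) (p ^ 2) := Nat.Coprime.pow_right 2 (by simp)
  have hd' : p + 1 ∣ p ^ 2 + 1 := hcop.dvd_of_dvd_mul_right hd
  have hd2 : p + 1 ∣ 2 := by
    zify at hd' ⊢
    obtain ⟨u, hu⟩ := hd'
    exact ⟨u - (p : ℤ) + 1, by linear_combination hu⟩
  have := Nat.le_of_dvd two_pos hd2
  have := hp.two_le
  omega

/-- The symmetric lines contradict `witt`. -/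
theorem not_symmetric (h2 : IsMultiplyPretransitive G Ω 2) (hΩ : Nat.card Ω = p ^ 2 + 1)
    (hab : a ≠ b) {F : Set Ω} (haF : a ∈ F) (hbF : b ∈ F) (hF : F.ncard = p + 1)
    (hfix : ∀ g : G, g • a = a → g • b ∈ F → g • F = F)
    (hswap : ∀ g : G, g • a = b → g • b = a → g • F = F) : False := by
  refine witt h2 hΩ hab haF hbF hF fun g hga hgb => ?_
  have hne : g • a ≠ g • b := fun e => hab (MulAction.injective g e)
  obtain ⟨s, hs, hs'⟩ := is_two_pretransitive_iff.1 h2 hab hab.symm
  by_cases hb : g • b = a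
  · have e := hfix (g * s) (by rw [mul_smul, hs, hb]) (by rw [mul_smul, hs']; exact hga)
    rwa [mul_smul, hswap s hs hs'] at e
  by_cases ha : g • a = a
  · exact hfix g ha hgb
  obtain ⟨u, hu, hu'⟩ := is_two_pretransitive_iff.1 h2 hab (Ne.symm ha)
  -- the line through `a` and `g • a` is `F`
  have e1 : (u * s) • F = F := by
    rw [mul_smul, hswap s hs hs']
    exact hfix u hu (by rw [hu']; exact hga)
  have e1a : (u * s) • a = g • a := by rw [mul_smul, hs, hu']
  have e1b : (u * s) • b = a := by rw [mul_smul, hs', hu]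
  have e2 : ((u * s)⁻¹ * g) • F = F := hfix _
    (by rw [mul_smul, inv_smul_eq_iff, e1a])
    (by
      rw [mul_smul]
      rw [← e1] at hgb
      exact Set.mem_smul_set_iff_inv_smul_mem.1 hgb)
  calc g • F = (u * s) • ((u * s)⁻¹ * g) • F := by rw [smul_smul, mul_inv_cancel_left]
    _ = F := by rw [e2, e1]

/-- No sharply doubly transitive group has degree `p² + 1`, and no Zassenhaus group of this degree
has two point stabilisers of order dividing `p - 1`. -/
theorem not_sharp [FaithfulSMul G Ω] (h2 : IsMultiplyPretransitive G Ω 2)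
    (hΩ : Nat.card Ω = p ^ 2 + 1) (hp2 : p ≠ 2) (hab : a ≠ b)
    (hfix : ∀ g : G, g • a = a → g • b = b → g ≠ 1 → ∀ x, x ≠ a → x ≠ b → g • x ≠ x)
    (hd : Nat.card (ZData.H2 (G := G) a b) ∣ p - 1) : False := by
  classical
  have hp : p.Prime := Fact.out
  have h5 : 3 ≤ p := by
    have := hp.two_le
    omega
  haveI : IsPretransitive G Ω := isPretransitive_of_is_two_pretransitive
  have hz : ZData G Ω := by
    refine ⟨fun g hg => FaithfulSMul.eq_of_smul_eq_smul (α := Ω) fun x => by rw [hg, one_smul],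
      fun h h' => is_two_pretransitive_iff.1 h2 h h', fun g {x y z} hxy hyz hxz gx gy gz => ?_⟩
    obtain ⟨u, hu, hu'⟩ := is_two_pretransitive_iff.1 h2 hxy hab
    by_contra hg
    refine hfix (u * g * u⁻¹) ?_ ?_ (fun e => hg (conj_eq_one_iff.1 e)) (u • z) ?_ ?_ ?_
    · rw [← hu, mul_smul, mul_smul, inv_smul_smul, gx]
    · rw [← hu', mul_smul, mul_smul, inv_smul_smul, gy]
    · exact fun e => hxz (MulAction.injective u (hu.trans e.symm))
    · exact fun e => hyz (MulAction.injective u (hu'.trans e.symm))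
    · rw [mul_smul, mul_smul, inv_smul_smul, gz]
  have hn3 : 3 ≤ Nat.card Ω := by rw [hΩ]; nlinarith
  by_cases hone : Nat.card (ZData.H2 (G := G) a b) = 1
  · -- sharply doubly transitive
    letI : Fintype G := Fintype.ofFinite G
    letI : Fintype Ω := Fintype.ofFinite Ω
    have hG : Nat.card G = Nat.card Ω * (Nat.card Ω - 1) := by
      rw [hz.card_group hab, hone, mul_one]
    have hone' : ∀ (g : G) (x y : Ω), x ≠ y → g • x = x → g • y = y → g = 1 := by
      intro g x y hxy gx gy
      have h1 : Nat.card (ZData.H2 (G := G) x y) = 1 := (hz.card_H2_eq hab hxy).trans hone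
      have h2' : g ∈ ZData.H2 (G := G) x y := ZData.mem_H2.2 ⟨gx, gy⟩
      rwa [Subgroup.eq_bot_of_card_eq _ h1, Subgroup.mem_bot] at h2'
    obtain ⟨q, hq, hqn, hq2⟩ : ∃ q : ℕ, q.Prime ∧ q ∣ Nat.card Ω ∧ q ≠ 2 := by
      have hodd : p % 2 = 1 := Nat.odd_iff.1 (hp.odd_of_ne_two hp2)
      obtain ⟨m, hm⟩ : ∃ m, p = 2 * m + 1 := ⟨p / 2, by omega⟩
      obtain ⟨q, hq, hqd⟩ := Nat.exists_prime_and_dvd (n := 2 * m * m + 2 * m + 1) (by nlinarith)
      refine ⟨q, hq, ?_, fun e => ?_⟩
      · rw [hΩ, hm, show (2 * m + 1) ^ 2 + 1 = 2 * (2 * m * m + 2 * m + 1) by ring]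
        exact dvd_mul_of_dvd_right hqd 2
      · subst e
        obtain ⟨u, hu⟩ := hqd
        obtain ⟨v, hv⟩ : ∃ v, 2 * m * m + 2 * m = 2 * v := ⟨m * m + m, by ring⟩
        omega
    haveI : Fact (Nat.Prime 2) := ⟨Nat.prime_two⟩
    haveI : Fact q.Prime := ⟨hq⟩
    obtain ⟨r, hr⟩ := exists_prime_orderOf_dvd_card' (G := G) q (hG ▸ dvd_mul_of_dvd_left hqn _)
    have h2n : 2 ∣ Nat.card Ω := by
      rw [hΩ]
      have : Odd (p ^ 2) := (hp.odd_of_ne_two hp2).pow
      exact (even_iff_two_dvd.1 this.add_one)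
    obtain ⟨t, ht⟩ := exists_prime_orderOf_dvd_card' (G := G) 2 (hG ▸ dvd_mul_of_dvd_left h2n _)
    -- elements of prime order dividing the degree move every point
    have hfree : ∀ (g : G) (l : ℕ), l.Prime → orderOf g = l → l ∣ Nat.card Ω →
        ∀ x : Ω, g • x ≠ x := by
      intro g l hl hg hln x hx
      haveI : Fact l.Prime := ⟨hl⟩
      have hP : IsPGroup l (Subgroup.zpowers g) :=
        IsPGroup.of_card (n := 1) (by rw [Nat.card_zpowers, hg, pow_one])
      have hfp : x ∈ fixedPoints (Subgroup.zpowers g) Ω := by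
        rintro ⟨h, hh⟩
        obtain ⟨i, rfl⟩ := Subgroup.mem_zpowers_iff.1 hh
        show g ^ i • x = x
        exact zpow_mem (show g ∈ stabilizer G x from hx) i
      obtain ⟨y, hy, hxy⟩ := hP.exists_fixed_point_of_prime_dvd_card_of_fixed_point Ω hln hfp
      have hg1 : g = 1 :=
        hone' g x y hxy hx (hy ⟨g, Subgroup.mem_zpowers g⟩)
      rw [hg1, orderOf_one] at hg
      exact hl.ne_one hg.symm
    -- the conjugates of an involution are all fixed-point-free elements
    let D : Finset G := Finset.univ.filter fun g => ∀ x : Ω, g • x ≠ x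
    have hD : D.card + 1 = Nat.card Ω := by
      have hb := sum_card_fixedBy_eq_card_orbits_mul_card_group G Ω
      have hor : Fintype.card (orbitRel.Quotient G Ω) = 1 := by
        refine Fintype.card_eq_one_iff.2 ⟨Quotient.mk'' a, ?_⟩
        rintro ⟨x⟩
        exact Quotient.sound' (exists_smul_eq G a x)
      rw [hor, one_mul] at hb
      have hval : ∀ g : G, Fintype.card (fixedBy Ω g) + (if g ∈ D then 1 else 0) =
          1 + (if g = 1 then Nat.card Ω - 1 else 0) := by
        intro g
        by_cases hg : g = 1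
        · subst hg
          have hnd : (1 : G) ∉ D := by
            simp only [D, Finset.mem_filter, Finset.mem_univ, true_and, one_smul]
            exact fun h => h a rfl
          rw [if_neg hnd, if_pos rfl]
          have : Fintype.card (fixedBy Ω (1 : G)) = Nat.card Ω := by
            rw [← Nat.card_eq_fintype_card]
            exact Nat.card_congr (Equiv.subtypeUnivEquiv fun x => one_smul G x)
          omega
        rw [if_neg hg, add_zero]
        by_cases hgD : g ∈ D
        · simp only [D, Finset.mem_filter, Finset.mem_univ, true_and] at hgD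
          rw [if_pos (by simp [D, hgD]), Fintype.card_eq_zero_iff.2 ⟨fun (x : fixedBy Ω g) => hgD x.1 x.2⟩]
        · rw [if_neg hgD, add_zero]
          simp only [D, Finset.mem_filter, Finset.mem_univ, true_and, not_forall, not_not] at hgD
          obtain ⟨x, hx⟩ := hgD
          refine Fintype.card_eq_one_iff.2 ⟨⟨x, hx⟩, fun y => Subtype.ext ?_⟩
          by_contra hne
          exact hg (hone' g _ _ hne y.2 hx)
      have hs := Finset.sum_congr rfl (fun g (_ : g ∈ (Finset.univ : Finset G)) => hval g)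
      simp only [Finset.sum_add_distrib, Finset.sum_ite_mem, Finset.univ_inter, Finset.sum_const,
        smul_eq_mul, mul_one, Finset.card_univ, Finset.sum_ite_eq', Finset.mem_univ, if_true,
        hb] at hs
      omega
    have htD : t ∈ D := by simp [D, hfree t 2 Nat.prime_two ht h2n]
    have hcl : ∀ g : G, orderOf g = 2 → g ∈ D := fun g hg => by
      simp [D, hfree g 2 Nat.prime_two hg h2n]
    let cls : Finset G := Finset.univ.image fun g : G => g * t * g⁻¹
    have hclsD : cls ⊆ D := by
      intro g hg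
      obtain ⟨u, -, rfl⟩ := Finset.mem_image.1 hg
      refine hcl _ (orderOf_eq_prime ?_ ?_)
      · rw [conj_pow, ← ht, pow_orderOf_eq_one, mul_one, mul_inv_cancel]
      · rw [ne_eq, conj_eq_one_iff]
        intro e
        rw [e, orderOf_one] at ht
        omega
    have hfib : ∀ c ∈ cls, ((Finset.univ : Finset G).filter fun g => g * t * g⁻¹ = c).card ≤
        Nat.card Ω := by
      intro c hc
      rw [Nat.card_eq_fintype_card, ← Finset.card_univ]
      refine Finset.card_le_card_of_injOn (fun g => g⁻¹ • a) (fun g _ => Finset.mem_univ _) ?_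
      intro g hg g' hg' e
      simp only [Finset.coe_filter, Finset.mem_univ, true_and, Set.mem_setOf_eq] at hg hg'
      have hc' : g'⁻¹ * g * t = t * (g'⁻¹ * g) := by
        calc g'⁻¹ * g * t = g'⁻¹ * (g * t * g⁻¹) * g := by group
          _ = g'⁻¹ * (g' * t * g'⁻¹) * g := by rw [hg, hg']
          _ = t * (g'⁻¹ * g) := by group
      have hfx : (g'⁻¹ * g) • g⁻¹ • a = g⁻¹ • a := by
        rw [mul_smul, smul_inv_smul]
        exact e.symm
      have hfx' : (g'⁻¹ * g) • t • g⁻¹ • a = t • g⁻¹ • a := by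
        rw [smul_smul, hc', mul_smul, hfx]
      have := hone' _ _ _ (hfree t 2 Nat.prime_two ht h2n (g⁻¹ • a)).symm hfx hfx'
      exact (inv_mul_eq_one.1 this).symm
    have hcnt : Nat.card G ≤ cls.card * Nat.card Ω := by
      rw [Nat.card_eq_fintype_card, ← Finset.card_univ, Finset.card_eq_sum_card_image (fun g : G =>
        g * t * g⁻¹) Finset.univ]
      exact (Finset.sum_le_card_nsmul _ _ _ hfib).trans (le_of_eq (smul_eq_mul _ _))
    rw [hG, mul_comm] at hcnt
    have hge : Nat.card Ω - 1 ≤ cls.card := Nat.le_of_mul_le_mul_right hcnt (by omega)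
    have heq : cls = D := Finset.eq_of_subset_of_card_le hclsD (by omega)
    have hrD : r ∈ D := by simp [D, hfree r q hq hr hqn]
    rw [← heq] at hrD
    obtain ⟨u, -, hu⟩ := Finset.mem_image.1 hrD
    have hru : r ^ 2 = 1 := by
      rw [← hu, conj_pow, ← ht, pow_orderOf_eq_one, mul_one, mul_inv_cancel]
    have := orderOf_dvd_of_pow_eq_one hru
    rw [hr] at this
    exact hq2 ((Nat.prime_dvd_prime_iff_eq hq Nat.prime_two).1 this)
  · have hne : ZData.H2 (G := G) a b ≠ ⊥ := fun e => hone (by rw [e, Subgroup.card_bot])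
    obtain ⟨⟨g, hg⟩, hg1⟩ := Subgroup.ne_bot_iff_exists_ne_one.1 hne
    have hZ : Cfsg.IsZassenhausGroup G Ω := by
      refine ⟨inferInstance, h2, fun g x y z h h' h'' => hz.three g h h' h'',
        ⟨g, fun e => hg1 (Subtype.ext e), a, b, hab, (ZData.mem_H2.1 hg).1, (ZData.mem_H2.1 hg).2⟩,
        fun N hN hNt => ?_⟩
      haveI := hN
      haveI := hNt
      by_contra hcon
      push Not at hcon
      obtain ⟨-, hel⟩ := PermLib.elementary_of_regular_normal h2 (hcon a)
      have hcard := PermLib.card_eq_of_regular (N := N) (hcon a)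
      rw [hΩ] at hcard
      have : Nontrivial N := by
        rw [← Finite.one_lt_card_iff_nontrivial, hcard]
        have := pow_pos hp.pos 2
        omega
      obtain ⟨l, j, hl, hj, hlj, -⟩ := hel this
      rw [hcard] at hlj
      have h2n : 2 ∣ p ^ 2 + 1 := even_iff_two_dvd.1 (hp.odd_of_ne_two hp2).pow.add_one
      have hl2 : l = 2 := by
        have := Nat.prime_two.dvd_of_dvd_pow (hlj ▸ h2n)
        exact ((Nat.prime_dvd_prime_iff_eq Nat.prime_two hl).1 this).symm
      subst hl2
      have hmod : p ^ 2 % 4 = 1 := by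
        rw [Nat.pow_mod]
        have hodd : p % 2 = 1 := Nat.odd_iff.1 (hp.odd_of_ne_two hp2)
        have : p % 4 = 1 ∨ p % 4 = 3 := by omega
        rcases this with h | h <;> rw [h]
      rcases Nat.lt_or_ge j 2 with hj2 | hj2
      · interval_cases j
        nlinarith
      · obtain ⟨i, rfl⟩ := Nat.exists_eq_add_of_le hj2
        rw [pow_add] at hlj
        omega
    obtain ⟨N, hN⟩ := hz.exists_kernel hab
    have hNcard : Nat.card N = p ^ 2 := by
      have := hN.card_add_one hab.symm
      omega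
    have hNc : IsMulCommutative N := IsPGroup.isMulCommutative_of_card_eq_prime_sq hNcard
    have h1 := CharDeep.ZA.kernel_small hZ hN hab hNc
    have h2' := Nat.le_of_dvd (by omega) hd
    rw [hΩ] at h1
    have : p * 3 ≤ p ^ 2 := by rw [pow_two]; exact Nat.mul_le_mul_left p h5
    omega

end Cfsg.Agent.PermB.TwoPSq
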