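import Cfsg.Agent.PermB.TwoPSq.CaseTwo
import Cfsg.Agent.PermB.TwoPSq.CaseNormal
import Cfsg.Agent.PermB.TwoPSq.Plane
import Mathlib.GroupTheory.GroupAction.SubMulAction.OfStabilizer
import Mathlib.GroupTheory.GroupAction.Primitive
import Mathlib.GroupTheory.SpecificGroups.Alternating.Simple
import Mathlib.GroupTheory.GroupAction.MultipleTransitivity

/-!
Doubly transitive groups of degree `p² + 1` are doubly primitive, apart from the group of
order 20.
-/

set_option autoImplicit false
set_option linter.style.haveILetI false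
set_option linter.unusedSectionVars false

namespace Cfsg.Agent.PermB.TwoPSq

open MulAction
open scoped Pointwise

variable {G Ω : Type*} [Group G] [MulAction G Ω] [Finite G] [Finite Ω] [FaithfulSMul G Ω]
  {p : ℕ} [Fact p.Prime] {a : Ω}

theorem not_block (h2 : IsMultiplyPretransitive G Ω 2) (hΩ : Nat.card Ω = p ^ 2 + 1)
    (hp2 : p ≠ 2) {B : Set (SubMulAction.ofStabilizer G a)} {b : SubMulAction.ofStabilizer G a}
    (hB : IsBlock (stabilizer G a) B) (hb : b ∈ B) (hBp : B.ncard = p) : False := by
  classical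
  have hp : p.Prime := Fact.out
  haveI : IsPretransitive G Ω := isPretransitive_of_is_two_pretransitive
  obtain ⟨b₀, hb₀⟩ : ∃ b₀ : Ω, b₀ = (b : Ω) := ⟨_, rfl⟩
  have hmem : ∀ x : SubMulAction.ofStabilizer G a, (x : Ω) ≠ a := fun x =>
    (SubMulAction.mem_ofStabilizer_iff _ _).1 x.2
  have hab : a ≠ b₀ := hb₀ ▸ (hmem b).symm
  obtain ⟨V, hV⟩ : ∃ V : Set (SubMulAction.ofStabilizer G a) → Set Ω,
      V = fun S => insert a (Subtype.val '' S) := ⟨_, rfl⟩
  have memV : ∀ {S} {x : SubMulAction.ofStabilizer G a}, (x : Ω) ∈ V S ↔ x ∈ S := by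
    intro S x
    simp only [hV, Set.mem_insert_iff, hmem x, false_or]
    exact Subtype.val_injective.mem_set_image
  have haV : ∀ S, a ∈ V S := fun S => by simp [hV]
  have hcardV : ∀ S, (V S).ncard = S.ncard + 1 := fun S => by
    rw [hV, Set.ncard_insert_of_notMem (by
      rintro ⟨x, -, hx⟩
      exact hmem x hx), Set.ncard_image_of_injective _ Subtype.val_injective]
  have casesV : ∀ {S} {y : Ω}, y ∈ V S → y = a ∨ ∃ x ∈ S, (x : Ω) = y := fun {S y} h => by
    simpa [hV] using h
  obtain ⟨F, hF⟩ : ∃ F : Set Ω, F = V B := ⟨_, rfl⟩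
  have hFcard : F.ncard = p + 1 := by rw [hF, hcardV, hBp]
  have haF : a ∈ F := hF ▸ haV B
  have hbF : b₀ ∈ F := by rw [hF, hb₀, memV]; exact hb
  -- the stabiliser of `a` permutes the lines through `a`
  have hfix : ∀ g : G, g • a = a → g • b₀ ∈ F → g • F = F := by
    intro g hga hgb
    let h : stabilizer G a := ⟨g, hga⟩
    have hb' : h • b ∈ B := by
      rw [hF, hb₀] at hgb
      exact memV.1 (show ((h • b : SubMulAction.ofStabilizer G a) : Ω) ∈ V B from hgb)
    have hB' : h • B = B := (isBlock_iff_smul_eq_of_mem.1 hB) hb hb'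
    refine Set.eq_of_subset_of_ncard_le ?_ (by rw [Set.ncard_smul_set])
    rintro _ ⟨y, hy, rfl⟩
    rw [hF] at hy ⊢
    rcases casesV hy with rfl | ⟨x, hx, rfl⟩
    · show g • y ∈ _
      rw [hga]
      exact haV B
    · refine (memV (x := h • x)).2 ?_
      rw [← hB']
      exact Set.smul_mem_smul_set hx
  obtain ⟨s, hsa, hsb⟩ := is_two_pretransitive_iff.1 h2 hab hab.symm
  obtain ⟨F', hF'⟩ : ∃ F' : Set Ω, F' = s • F := ⟨_, rfl⟩
  have haF' : a ∈ F' := hF' ▸ ⟨b₀, hbF, hsb⟩
  have hbF' : b₀ ∈ F' := hF' ▸ ⟨a, haF, hsa⟩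
  have hF'card : F'.ncard = p + 1 := by rw [hF', Set.ncard_smul_set, hFcard]
  have hswap : F' ≠ F := by
    intro e
    refine not_symmetric h2 hΩ hab haF hbF hFcard hfix fun g hga hgb => ?_
    have e1 : (s⁻¹ * g) • F = F := hfix _
      (by rw [mul_smul, hga, inv_smul_eq_iff, hsa])
      (by rw [mul_smul, hgb, inv_smul_eq_iff.2 hsb.symm]; exact hbF)
    rw [mul_smul, inv_smul_eq_iff, ← hF', e] at e1
    exact e1
  -- the lines are unique
  have hline : ∀ g : G, g • a = b₀ → g • b₀ = a → g • F = F' := by
    intro g hga hgb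
    have e1 : (s⁻¹ * g) • F = F := hfix _
      (by rw [mul_smul, hga, inv_smul_eq_iff, hsa])
      (by rw [mul_smul, hgb, inv_smul_eq_iff.2 hsb.symm]; exact hbF)
    rw [mul_smul, inv_smul_eq_iff, ← hF'] at e1
    exact e1
  have hKF : ∀ g : G, g • a = a → g • b₀ = b₀ → g • F' = F' := by
    intro g hga hgb
    rw [hF', smul_smul]
    rw [← hF']
    exact hline _ (by rw [mul_smul, hsa, hgb]) (by rw [mul_smul, hsb, hga])
  obtain ⟨O, hO⟩ : ∃ O : Set (SubMulAction.ofStabilizer G a),
      O = {x : SubMulAction.ofStabilizer G a | (x : Ω) ∈ F' ∧ x ≠ b} := ⟨_, rfl⟩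
  have memO : ∀ {x}, x ∈ O ↔ (x : Ω) ∈ F' ∧ x ≠ b := by simp [hO]
  have hVO : V O = F' \ {b₀} := by
    ext y
    constructor
    · intro hy
      rcases casesV hy with rfl | ⟨x, hx, rfl⟩
      · exact ⟨haF', hab⟩
      · exact ⟨(memO.1 hx).1, fun e => (memO.1 hx).2 (Subtype.ext (e.trans hb₀))⟩
    · rintro ⟨hy, hyb⟩
      by_cases hya : y = a
      · exact hya ▸ haV O
      · exact (memV (x := ⟨y, (SubMulAction.mem_ofStabilizer_iff _ _).2 hya⟩)).2
          (memO.2 ⟨hy, fun e => hyb ((congrArg Subtype.val e).trans hb₀.symm)⟩)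
  have hOcard : O.ncard + 1 = p := by
    have h1 := hcardV O
    rw [hVO, Set.ncard_sdiff_singleton_of_mem hbF', hF'card] at h1
    omega
  have c : Cfg (stabilizer G a) p b B O := by
    refine
      { two := hp2
        faithful := ?_
        trans := ?_
        card := ?_
        block := hB
        mem := hb
        card_B := hBp
        card_O := hOcard
        notMem := fun h => (memO.1 h).2 rfl
        inv := ?_
        notSubset := ?_
        twist := ?_
        noEquiv := ?_
        noWitt := ?_
        noSharp := ?_ }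
    · intro h hh
      refine Subtype.ext (FaithfulSMul.eq_of_smul_eq_smul (α := Ω) fun y => ?_)
      rw [Subgroup.coe_one, one_smul]
      by_cases hy : y = a
      · rw [hy]; exact h.2
      · exact congrArg Subtype.val (hh ⟨y, (SubMulAction.mem_ofStabilizer_iff _ _).2 hy⟩)
    · refine ⟨fun x y => ?_⟩
      obtain ⟨g, hg, hg'⟩ := is_two_pretransitive_iff.1 h2 (hmem x).symm (hmem y).symm
      exact ⟨⟨g, hg⟩, Subtype.ext hg'⟩
    · have h1 := hcardV Set.univ
      have h3 : V Set.univ = Set.univ := Set.eq_univ_of_forall fun y => by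
        by_cases hy : y = a
        · rw [hy]; exact haV _
        · exact (memV (x := ⟨y, (SubMulAction.mem_ofStabilizer_iff _ _).2 hy⟩)).2 trivial
      rw [h3, Set.ncard_univ, Set.ncard_univ, hΩ] at h1
      omega
    · intro k hk x hx
      refine memO.2 ⟨?_, fun e => (memO.1 hx).2 (MulAction.injective k (e.trans hk.symm))⟩
      rw [← hKF (k : G) k.2 (by rw [hb₀]; exact congrArg Subtype.val hk)]
      exact Set.smul_mem_smul_set (memO.1 hx).1
    · intro hsub
      refine hswap (Set.eq_of_subset_of_ncard_le (fun y hy => ?_) (by rw [hFcard, hF'card]))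
      by_cases hyb : y = b₀
      · exact hyb ▸ hbF
      have hy' : y ∈ V O := by rw [hVO]; exact ⟨hy, hyb⟩
      rcases casesV hy' with rfl | ⟨x, hx, rfl⟩
      · exact haF
      · rw [hF, memV]; exact hsub hx
    · have hsa' : s⁻¹ • b₀ = a := by rw [inv_smul_eq_iff, hsa]
      have hsb' : s⁻¹ • a = b₀ := by rw [inv_smul_eq_iff, hsb]
      have hf : ∀ (g : G), g • a = b₀ → g • b₀ = a → ∀ k : stabilizer (stabilizer G a) b,
          (g * ((k : stabilizer G a) : G) * g⁻¹) • a = a ∧
          (g * ((k : stabilizer G a) : G) * g⁻¹) • b₀ = b₀ := by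
        intro g hga hgb k
        have hka : ((k : stabilizer G a) : G) • a = a := (k : stabilizer G a).2
        have hkb : ((k : stabilizer G a) : G) • b₀ = b₀ := hb₀ ▸ congrArg Subtype.val k.2
        constructor
        · rw [mul_smul, mul_smul, inv_smul_eq_iff.2 hgb.symm, hkb, hgb]
        · rw [mul_smul, mul_smul, inv_smul_eq_iff.2 hga.symm, hka, hga]
      let mk : ∀ (g : G), g • a = a → g • b₀ = b₀ → stabilizer (stabilizer G a) b :=
        fun g h h' => ⟨⟨g, h⟩, Subtype.ext (show g • (b : Ω) = b from hb₀ ▸ h')⟩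
      let θ : stabilizer (stabilizer G a) b ≃* stabilizer (stabilizer G a) b :=
        { toFun := fun k => mk _ (hf s hsa hsb k).1 (hf s hsa hsb k).2
          invFun := fun k => mk _ (hf s⁻¹ hsb' hsa' k).1 (hf s⁻¹ hsb' hsa' k).2
          left_inv := fun k => Subtype.ext (Subtype.ext (by
            show s⁻¹ * (s * ((k : stabilizer G a) : G) * s⁻¹) * s⁻¹⁻¹ = _
            group))
          right_inv := fun k => Subtype.ext (Subtype.ext (by
            show s * (s⁻¹ * ((k : stabilizer G a) : G) * s⁻¹⁻¹) * s⁻¹ = _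
            group))
          map_mul' := fun k k' => Subtype.ext (Subtype.ext (by
            show s * (((k : stabilizer G a) : G) * ((k' : stabilizer G a) : G)) * s⁻¹ =
              (s * ((k : stabilizer G a) : G) * s⁻¹) * (s * ((k' : stabilizer G a) : G) * s⁻¹)
            group)) }
      refine ⟨θ, fun k hk x hx => Subtype.ext ?_⟩
      show (s * ((k : stabilizer G a) : G) * s⁻¹) • (x : Ω) = x
      have hxF : s⁻¹ • (x : Ω) ∈ F := by
        rw [← Set.mem_smul_set_iff_inv_smul_mem, ← hF']
        exact (memO.1 hx).1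
      rw [hF] at hxF
      rcases casesV hxF with e | ⟨z, hz, e⟩
      · exfalso
        rw [inv_smul_eq_iff, hsa] at e
        exact (memO.1 hx).2 (Subtype.ext (e.trans hb₀))
      · have hkz : ((k : stabilizer G a) : G) • (z : Ω) = z := congrArg Subtype.val (hk z hz)
        rw [mul_smul, mul_smul, ← e, hkz, e, smul_inv_smul]
    · intro r hr hinv hclass
      -- the line `F'` is the line of each of its points and `a`
      have hstab : ∀ g : G, g • a = a → g • b₀ ∈ F' → g • F' = F' := by
        intro g hga hgb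
        refine Set.eq_of_subset_of_ncard_le ?_ (by rw [Set.ncard_smul_set])
        rintro _ ⟨y, hy, rfl⟩
        by_cases hya : y = a
        · show g • y ∈ F'
          rw [hya, hga]; exact haF'
        let h : stabilizer G a := ⟨g, hga⟩
        let y' : SubMulAction.ofStabilizer G a :=
          ⟨y, (SubMulAction.mem_ofStabilizer_iff _ _).2 hya⟩
        have hy' : r b y' := (hclass y').2 (by
          by_cases e : y' = b
          · exact Or.inl e
          · exact Or.inr (memO.2 ⟨hy, e⟩))
        have hb' : r b (h • b) := (hclass _).2 (by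
          by_cases e : h • b = b
          · exact Or.inl e
          · exact Or.inr (memO.2 ⟨show g • (b : Ω) ∈ F' from hb₀ ▸ hgb, e⟩))
        show g • y ∈ F'
        rcases (hclass _).1 (hr.trans hb' (hinv h _ _ hy')) with e | e
        · exact (show g • y = b₀ from (congrArg Subtype.val e).trans hb₀.symm) ▸ hbF'
        · exact (memO.1 e).1
      -- a third point of the line
      obtain ⟨y, hy, hya, hyb⟩ : ∃ y ∈ F', y ≠ a ∧ y ≠ b₀ := by
        by_contra hcon
        push Not at hcon
        have hsub : F' ⊆ {a, b₀} := fun y hy => by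
          by_cases e : y = a
          · exact Or.inl e
          · exact Or.inr (hcon y hy e)
        have h1 := Set.ncard_le_ncard hsub
        rw [hF'card, Set.ncard_pair hab] at h1
        have := hp.two_le
        omega
      -- transport the property to the pair `(b₀, y)`
      obtain ⟨g, hga, hgb⟩ := is_two_pretransitive_iff.1 h2 hab (Ne.symm hyb)
      have e1 : (s⁻¹ * g) • F = F := hfix _
        (by rw [mul_smul, hga, inv_smul_eq_iff, hsa])
        (by rw [mul_smul, hgb, ← Set.mem_smul_set_iff_inv_smul_mem, ← hF']; exact hy)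
      have e2 : g • F = F' := by
        rw [mul_smul, inv_smul_eq_iff, ← hF'] at e1; exact e1
      -- `g * s` maps `b₀` to `y`'s line
      obtain ⟨u, hua, hub⟩ := is_two_pretransitive_iff.1 h2 hab (Ne.symm hya)
      -- the line of `a` and `y`
      have huF : u • F = F' := by
        have hga' : (g * s) • a = y := by rw [mul_smul, hsa, hgb]
        have hgb' : (g * s) • b₀ = b₀ := by rw [mul_smul, hsb, hga]
        -- the line of `y` and `b₀`, and of `y` and `a`
        have hgy : (g * s) • F' = F' := by
          rw [hF', smul_smul, ← hF', mul_assoc]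
          have e3 : (s * s) • F = F := hfix _ (by rw [mul_smul, hsa, hsb])
            (by rw [mul_smul, hsb, hsa]; exact hbF)
          rw [mul_smul, e3, e2]
        have hainv : (g * s)⁻¹ • a ∈ F' := by
          rw [← Set.mem_smul_set_iff_inv_smul_mem, hgy]; exact haF'
        -- move `b₀` to the preimage of `a` inside the stabiliser of `a`
        have hne : a ≠ (g * s)⁻¹ • a := fun e => hya (by
          rw [eq_inv_smul_iff, hga'] at e; exact e)
        obtain ⟨w, hwa, hwb⟩ := is_two_pretransitive_iff.1 h2 hab hne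
        have e4 : w • F' = F' := hstab w hwa (by rw [hwb]; exact hainv)
        have e5 : ((g * s) * w * s) • a = a := by
          rw [mul_smul, mul_smul, hsa, hwb, smul_inv_smul]
        have e6 : ((g * s) * w * s) • b₀ = y := by
          rw [mul_smul, mul_smul, hsb, hwa, hga']
        have e7 : (((g * s) * w * s)⁻¹ * u) • F = F := hfix _
          (by rw [mul_smul, hua, inv_smul_eq_iff, e5])
          (by rw [mul_smul, hub, inv_smul_eq_iff.2 e6.symm]; exact hbF)
        rw [mul_smul, inv_smul_eq_iff] at e7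
        rw [e7, mul_smul, ← hF', mul_smul, e4, hgy]
      refine hswap ?_
      have hb' : b₀ ∈ u • F := huF.symm ▸ hbF'
      have e8 : u⁻¹ • F = F := hfix _ (inv_smul_eq_iff.2 hua.symm)
        (Set.mem_smul_set_iff_inv_smul_mem.1 hb')
      rw [inv_smul_eq_iff] at e8
      exact (e8.trans huF).symm
    · intro L hL huniq hcard
      obtain ⟨T, hT⟩ : ∃ T : Set Ω,
          T = V {x | ∀ l ∈ L, l • x = x} := ⟨_, rfl⟩
      have memT : ∀ y, y ∈ T ↔ ∀ l ∈ L, ((l : stabilizer G a) : G) • y = y := by
        intro y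
        constructor
        · intro hy l hl
          rw [hT] at hy
          rcases casesV hy with rfl | ⟨x, hx, rfl⟩
          · exact l.2
          · exact congrArg Subtype.val (hx l hl)
        · intro hy
          rw [hT]
          by_cases hya : y = a
          · rw [hya]; exact haV _
          · exact (memV (x := ⟨y, (SubMulAction.mem_ofStabilizer_iff _ _).2 hya⟩)).2
              fun l hl => Subtype.ext (hy l hl)
      refine witt h2 hΩ hab (F := T) ((memT a).2 fun l _ => l.2)
        ((memT b₀).2 fun l hl => hb₀ ▸ congrArg Subtype.val (hL hl)) ?_ fun g hga hgb => ?_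
      · rw [hT, hcardV, hcard]
      have hf : ∀ l : L, (g⁻¹ * ((l : stabilizer G a) : G) * g) • a = a := fun l => by
        rw [mul_smul, mul_smul, (memT _).1 hga _ l.2, inv_smul_smul]
      let φ : L →* stabilizer G a :=
        { toFun := fun l => ⟨g⁻¹ * ((l : stabilizer G a) : G) * g, hf l⟩
          map_one' := Subtype.ext (by
            show g⁻¹ * ((1 : G)) * g = 1
            group)
          map_mul' := fun l l' => Subtype.ext (by
            show g⁻¹ * (((l : stabilizer G a) : G) * ((l' : stabilizer G a) : G)) * g =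
              g⁻¹ * ((l : stabilizer G a) : G) * g * (g⁻¹ * ((l' : stabilizer G a) : G) * g)
            group) }
      have hφ : Function.Injective φ := fun l l' e => Subtype.ext (Subtype.ext
        (mul_left_cancel (mul_right_cancel (congrArg Subtype.val e))))
      have hrange : φ.range = L := by
        refine huniq _ ?_ (Nat.card_congr (MonoidHom.ofInjective hφ).symm.toEquiv)
        rintro _ ⟨l, rfl⟩
        refine Subtype.ext ?_
        show (g⁻¹ * ((l : stabilizer G a) : G) * g) • (b : Ω) = b
        rw [← hb₀, mul_smul, mul_smul, (memT _).1 hgb _ l.2, inv_smul_smul]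
      refine Set.eq_of_subset_of_ncard_le ?_ (by rw [Set.ncard_smul_set])
      rintro _ ⟨y, hy, rfl⟩
      refine (memT _).2 fun l hl => ?_
      have hl' : φ ⟨l, hl⟩ ∈ L := hrange.le ⟨_, rfl⟩
      have h1 : (g⁻¹ * (l : G) * g) • y = y := (memT y).1 hy _ hl'
      rwa [mul_smul, mul_smul, inv_smul_eq_iff] at h1
    · intro hsemi hdvd
      refine not_sharp (a := a) (b := b₀) h2 hΩ hp2 hab (fun g hga hgb hg1 x hxa hxb hgx => ?_) ?_
      · refine hsemi ⟨g, hga⟩ (Subtype.ext ?_) (fun e => hg1 (congrArg Subtype.val e))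
          ⟨x, (SubMulAction.mem_ofStabilizer_iff _ _).2 hxa⟩
          (fun e => hxb ((congrArg Subtype.val e).trans hb₀.symm)) (Subtype.ext hgx)
        show g • (b : Ω) = b
        rw [← hb₀]
        exact hgb
      · have e : Nat.card (ZData.H2 (G := G) a b₀) =
            Nat.card (stabilizer (stabilizer G a) b) :=
          Nat.card_congr
            { toFun := fun g => ⟨⟨g, (ZData.mem_H2.1 g.2).1⟩,
                Subtype.ext (show (g : G) • (b : Ω) = b from hb₀ ▸ (ZData.mem_H2.1 g.2).2)⟩
              invFun := fun k => ⟨((k : stabilizer G a) : G), ZData.mem_H2.2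
                ⟨(k : stabilizer G a).2, hb₀ ▸ congrArg Subtype.val k.2⟩⟩
              left_inv := fun _ => rfl
              right_inv := fun _ => rfl }
        rw [e]
        exact hdvd
  obtain ⟨blk, E, P, fr⟩ := c.exists_frame
  rcases fr.two_or_normal c with h | h
  · exact fr.false_of_two c h
  · exact fr.false_of_normal c h

/-- Degree `p² + 1` with `p` odd: the point stabiliser is primitive on the other points. -/
theorem isPreprimitive_of_odd (h2 : IsMultiplyPretransitive G Ω 2)
    (hΩ : Nat.card Ω = p ^ 2 + 1) (hp2 : p ≠ 2) :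
    IsPreprimitive (stabilizer G a) (SubMulAction.ofStabilizer G a) := by
  classical
  have hp : p.Prime := Fact.out
  haveI : IsPretransitive (stabilizer G a) (SubMulAction.ofStabilizer G a) := ⟨fun x y => by
    obtain ⟨g, hg, hg'⟩ := is_two_pretransitive_iff.1 h2
      ((SubMulAction.mem_ofStabilizer_iff _ _).1 x.2).symm
      ((SubMulAction.mem_ofStabilizer_iff _ _).1 y.2).symm
    exact ⟨⟨g, hg⟩, Subtype.ext hg'⟩⟩
  have hX : Nat.card (SubMulAction.ofStabilizer G a) = p ^ 2 := by
    rw [SubMulAction.nat_card_ofStabilizer_eq G a, hΩ, Nat.add_sub_cancel]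
  refine ⟨fun {B} hB => ?_⟩
  by_contra hnt
  simp only [IsTrivialBlock, not_or] at hnt
  have hne : B.Nonempty := by
    by_contra hem
    rw [Set.not_nonempty_iff_eq_empty] at hem
    exact hnt.1 (hem ▸ Set.subsingleton_empty)
  obtain ⟨b, hb⟩ := hne
  have hd := hB.ncard_dvd_card ⟨b, hb⟩
  rw [hX] at hd
  obtain ⟨i, hi, hBi⟩ := (Nat.dvd_prime_pow hp).1 hd
  have h1 : 1 < B.ncard := by
    by_contra hle
    exact hnt.1 (Set.ncard_le_one_iff_subsingleton.1 (not_lt.1 hle))
  have h2' : B.ncard < p ^ 2 := by
    rw [← hX, ← Set.ncard_univ]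
    exact Set.ncard_lt_ncard (Set.ssubset_univ_iff.2 hnt.2)
  interval_cases i
  · rw [hBi, pow_zero] at h1; omega
  · exact not_block h2 hΩ hp2 hB hb (by rw [hBi, pow_one])
  · rw [hBi] at h2'; omega

/-- Degree five: a doubly transitive group has order 20 or has doubly transitive point
stabilisers. -/
theorem five (h2 : IsMultiplyPretransitive G Ω 2) (hΩ : Nat.card Ω = 5) (a : Ω) :
    IsPreprimitive (stabilizer G a) (SubMulAction.ofStabilizer G a) ∨ Nat.card G = 20 := by
  classical
  letI : Fintype Ω := Fintype.ofFinite Ω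
  haveI : IsPretransitive G Ω := isPretransitive_of_is_two_pretransitive
  refine or_iff_not_imp_right.2 fun h20 => ?_
  have hdvd : 20 ∣ Nat.card G := by
    have h4 : 4 ∣ Nat.card (stabilizer G a) := by
      haveI : IsPretransitive (stabilizer G a) (SubMulAction.ofStabilizer G a) := ⟨fun x y => by
        obtain ⟨g, hg, hg'⟩ := is_two_pretransitive_iff.1 h2
          ((SubMulAction.mem_ofStabilizer_iff _ _).1 x.2).symm
          ((SubMulAction.mem_ofStabilizer_iff _ _).1 y.2).symm
        exact ⟨⟨g, hg⟩, Subtype.ext hg'⟩⟩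
      have hX : Nat.card (SubMulAction.ofStabilizer G a) = 4 := by
        rw [SubMulAction.nat_card_ofStabilizer_eq G a, hΩ]
      haveI : Nonempty (SubMulAction.ofStabilizer G a) :=
        (Nat.card_pos_iff.1 (by rw [hX]; norm_num)).1
      rw [← hX]
      exact PermLib.card_dvd_card
    rw [PermLib.card_eq_mul_card_stabilizer (G := G) a, hΩ]
    exact Nat.mul_dvd_mul_left 5 h4
  obtain ⟨R, hR⟩ : ∃ R : Subgroup (Equiv.Perm Ω), R = (MulAction.toPermHom G Ω).range := ⟨_, rfl⟩
  have hRcard : Nat.card R = Nat.card G := by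
    rw [hR]
    exact Nat.card_congr (MonoidHom.ofInjective (MulAction.toPerm_injective)).symm.toEquiv
  have hperm : Nat.card (Equiv.Perm Ω) = 120 := by
    rw [Nat.card_perm, hΩ]
    rfl
  have hidx : R.index * Nat.card G = 120 := by
    rw [← hRcard, Subgroup.index_mul_card, hperm]
  have hidx3 : R.index ≤ 3 := by
    obtain ⟨m, hm⟩ := hdvd
    have hm2 : 2 ≤ m := by
      by_contra hlt
      interval_cases m
      · exact absurd hm (Nat.card_pos.ne')
      · exact h20 hm
    have h1 : R.index * (20 * 2) ≤ 120 := by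
      rw [← hidx, hm]
      exact Nat.mul_le_mul_left _ (Nat.mul_le_mul_left 20 hm2)
    omega
  have hcore : R.normalCore ≠ ⊥ := by
    intro hbot
    have hpos : R.index ≠ 0 := Subgroup.index_ne_zero_of_finite
    have h1 : Nat.card (Equiv.Perm Ω) ≤ Nat.card (Equiv.Perm (Equiv.Perm Ω ⧸ R)) := by
      refine Nat.card_le_card_of_injective
        (MulAction.toPermHom (Equiv.Perm Ω) (Equiv.Perm Ω ⧸ R)) ?_
      rw [← MonoidHom.ker_eq_bot_iff, ← Subgroup.normalCore_eq_ker, hbot]
    rw [hperm, Nat.card_perm, ← Subgroup.index_eq_card] at h1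
    interval_cases h : R.index <;> simp_all [Nat.factorial]
  have hA : alternatingGroup Ω ≤ R := by
    refine le_trans ?_ R.normalCore_le
    exact Equiv.Perm.alternatingGroup_le_of_normal (by rw [hΩ])
      ((Subgroup.nontrivial_iff_ne_bot _).2 hcore)
  haveI : IsMultiplyPretransitive (alternatingGroup Ω) Ω 3 := by
    have := alternatingGroup.isMultiplyPretransitive (α := Ω)
    rwa [hΩ] at this
  haveI : IsMultiplyPretransitive G Ω 3 := by
    refine ⟨fun x y => ?_⟩
    obtain ⟨⟨σ, hσ⟩, hxy⟩ := exists_smul_eq (alternatingGroup Ω) x y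
    have hσR := hA hσ
    rw [hR] at hσR
    obtain ⟨g, rfl⟩ := hσR
    refine ⟨g, ?_⟩
    rw [← hxy]
    ext i
    rfl
  haveI : IsMultiplyPretransitive (stabilizer G a) (SubMulAction.ofStabilizer G a) 2 :=
    SubMulAction.ofStabilizer.isMultiplyPretransitive.1 (inferInstance :
      IsMultiplyPretransitive G Ω (2 + 1))
  exact isPreprimitive_of_is_two_pretransitive inferInstance

end Cfsg.Agent.PermB.TwoPSq
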