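import Cfsg.Agent.Perm.PrimeIndex

/-!
Transitive groups of prime degree which are not doubly transitive.
-/

set_option autoImplicit false
set_option linter.style.haveILetI false

namespace Cfsg.Agent.PermB.TwoPSq

open MulAction Cfsg.Agent.PermLib

variable {G Y : Type*} [Group G] [MulAction G Y] [FaithfulSMul G Y] [Finite G] [Fintype Y]
  [IsPretransitive G Y] {p : ℕ} [Fact p.Prime]

/-- In a faithful transitive group of prime degree, an element of order `p` whose group is
normalised contains all elements killed by `p`. -/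
theorem mem_zpowers_of_normalized (hcard : Fintype.card Y = p) {σ : G} (hσ : orderOf σ = p)
    (hn : ∀ g : G, g * σ * g⁻¹ ∈ Subgroup.zpowers σ) {r : G} (hr : r ^ p = 1) :
    r ∈ Subgroup.zpowers σ := by
  have hp : p.Prime := Fact.out
  haveI : (Subgroup.zpowers σ).Normal := ⟨fun x hx g => by
    obtain ⟨z, rfl⟩ := Subgroup.mem_zpowers_iff.1 hx
    rw [← conj_zpow]
    exact zpow_mem (hn g) z⟩
  have hr' : IsPGroup p (Subgroup.zpowers r) := by
    obtain ⟨k, -, hk⟩ := (Nat.dvd_prime_pow hp).1
      (show orderOf r ∣ p ^ 1 by rw [pow_one]; exact orderOf_dvd_of_pow_eq_one hr)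
    exact IsPGroup.of_card (n := k) (by rw [Nat.card_zpowers, hk])
  have hs : IsPGroup p (Subgroup.zpowers σ) :=
    IsPGroup.of_card (n := 1) (by rw [Nat.card_zpowers, hσ, pow_one])
  obtain ⟨P, hP⟩ := (hs.to_sup_of_normal_left hr').exists_le_sylow
  have e : Subgroup.zpowers σ = (P : Subgroup G) :=
    Subgroup.eq_of_le_of_card_ge (le_sup_left.trans hP)
      (by rw [Nat.card_zpowers, hσ, card_sylow_of_prime_degree hcard P])
  rw [e]
  exact (le_sup_right.trans hP) (Subgroup.mem_zpowers r)

/-- A transitive group of prime degree is doubly transitive, or it is affine: only the identity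
fixes two points, point stabilisers are abelian and a subgroup of order `p` is normal. -/
theorem prime_degree_dichotomy (hcard : Fintype.card Y = p) :
    IsMultiplyPretransitive G Y 2 ∨
      ((∀ (g : G) (a b : Y), a ≠ b → g • a = a → g • b = b → g = 1) ∧
        (∀ (a : Y) (g h : G), g • a = a → h • a = a → g * h = h * g) ∧
        ∀ σ g : G, orderOf σ = p → g * σ * g⁻¹ ∈ Subgroup.zpowers σ) := by
  by_cases hG : Group.IsSolvable G
  swap
  · exact Or.inl (two_pretransitive_of_not_solvable hcard hG)
  right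
  classical
  have hp : p.Prime := Fact.out
  haveI : Nontrivial Y := Fintype.one_lt_card_iff_nontrivial.1 (by rw [hcard]; exact hp.one_lt)
  haveI : Nontrivial G := by
    rw [← Finite.one_lt_card_iff_nontrivial]
    obtain ⟨a⟩ : Nonempty Y := inferInstance
    have h1 := card_eq_mul_card_stabilizer (G := G) a
    rw [Nat.card_eq_fintype_card (α := Y), hcard] at h1
    rw [h1]
    exact lt_of_lt_of_le hp.one_lt (Nat.le_mul_of_pos_right p Nat.card_pos)
  haveI : IsPreprimitive G Y := IsPreprimitive.of_prime_card (by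
    rwa [Nat.card_eq_fintype_card, hcard])
  obtain ⟨N, hNn, hN, hNc⟩ := exists_commutative_normal_of_solvable hG
  haveI := isPretransitive_of_normal_ne_bot (α := Y) hN
  have hreg : ∀ a : Y, stabilizer N a = ⊥ := stabilizer_eq_bot_of_isMulCommutative hNc
  obtain ⟨o⟩ : Nonempty Y := inferInstance
  have hNcard : Nat.card N = p := by
    rw [card_eq_of_regular (hreg o), Nat.card_eq_fintype_card, hcard]
  haveI : IsCyclic N := isCyclic_of_prime_card hNcard
  -- the conjugation action is faithful on each stabilizer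
  have hconj : ∀ (a : Y) (g : G), g • a = a → MulAut.conjNormal g = (1 : MulAut N) → g = 1 := by
    intro a g ha h
    refine FaithfulSMul.eq_of_smul_eq_smul (α := Y) fun b => ?_
    obtain ⟨n, rfl⟩ := exists_smul_eq N a b
    have e : (g * (n : G) * g⁻¹) = n := by
      rw [← MulAut.conjNormal_apply, h, MulAut.one_apply]
    have e' := conj_smul_of_mem_stabilizer (α := Y) (mem_stabilizer_iff.2 ha) (n : G)
    rw [e] at e'
    rw [one_smul]
    exact e'.symm
  refine ⟨fun g a b hab ha hb => hconj a g ha (MulEquiv.ext fun x => ?_), ?_, ?_⟩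
  · obtain ⟨n, hn⟩ := exists_smul_eq N a b
    have hn1 : n ≠ 1 := fun e => hab (by rw [← hn, e, one_smul])
    have hfix : (MulAut.conjNormal g n : N) = n := (smul_bijective_of_regular (hreg a)).1 (by
      change ((MulAut.conjNormal g n : N) : G) • a = (n : G) • a
      rw [MulAut.conjNormal_apply, conj_smul_of_mem_stabilizer (mem_stabilizer_iff.2 ha),
        show (n : G) • a = b from hn, hb])
    have hx : x ∈ Subgroup.zpowers n := mem_zpowers_of_prime_card hNcard hn1
    obtain ⟨z, rfl⟩ := Subgroup.mem_zpowers_iff.1 hx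
    rw [map_zpow, hfix, MulAut.one_apply]
  · intro a g h hg hh
    have hab : ∀ f f' : MulAut N, f * f' = f' * f := by
      intro f f'
      obtain ⟨n, hn⟩ := IsCyclic.exists_generator (α := N)
      obtain ⟨i, hi⟩ := Subgroup.mem_zpowers_iff.1 (hn (f n))
      obtain ⟨j, hj⟩ := Subgroup.mem_zpowers_iff.1 (hn (f' n))
      refine MulEquiv.ext fun m => ?_
      obtain ⟨z, rfl⟩ := Subgroup.mem_zpowers_iff.1 (hn m)
      rw [MulAut.mul_apply, MulAut.mul_apply, map_zpow, map_zpow, map_zpow, map_zpow, ← hi, ← hj,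
        map_zpow, map_zpow, ← hi, ← hj, ← zpow_mul n i j, ← zpow_mul n j i, mul_comm i j]
    have h1 : g * h * g⁻¹ * h⁻¹ = 1 := by
      refine hconj a _ ?_ ?_
      · have hg' : g⁻¹ • a = a := inv_smul_eq_iff.2 hg.symm
        have hh' : h⁻¹ • a = a := inv_smul_eq_iff.2 hh.symm
        rw [mul_smul, mul_smul, mul_smul, hh', hg', hh, hg]
      · rw [map_mul, map_mul, map_mul, map_inv, map_inv,
          hab (MulAut.conjNormal g) (MulAut.conjNormal h)]
        group
    rwa [mul_inv_eq_one, mul_inv_eq_iff_eq_mul] at h1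
  · intro σ g hσ
    have hz : IsPGroup p (Subgroup.zpowers σ) :=
      IsPGroup.of_card (n := 1) (by rw [Nat.card_zpowers, hσ, pow_one])
    have hNp : IsPGroup p N := IsPGroup.of_card (n := 1) (by rw [hNcard, pow_one])
    obtain ⟨P, hP⟩ := (hNp.to_sup_of_normal_left hz).exists_le_sylow
    have e1 : N = (P : Subgroup G) := Subgroup.eq_of_le_of_card_ge (le_sup_left.trans hP)
      (by rw [hNcard, card_sylow_of_prime_degree hcard P])
    have e2 : Subgroup.zpowers σ = (P : Subgroup G) :=
      Subgroup.eq_of_le_of_card_ge (le_sup_right.trans hP)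
        (by rw [Nat.card_zpowers, hσ, card_sylow_of_prime_degree hcard P])
    rw [e2, ← e1]
    exact hNn.conj_mem σ (e1 ▸ e2 ▸ Subgroup.mem_zpowers σ) g

end Cfsg.Agent.PermB.TwoPSq
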